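/-
A finite group `Q` embeds in the alternating group of degree `n` for all `n ≥ 2 |Q|`: act by left
multiplication on two copies of `Q`.
-/
import Mathlib

set_option autoImplicit false

namespace Cfsg.Agent.Lib.Laws.AltEmbed

theorem exists_embedding (Q : Type*) [Group Q] [Finite Q] (n : ℕ) (hn : 2 * Nat.card Q ≤ n) :
    ∃ ι : Q →* alternatingGroup (Fin n), Function.Injective ι := by
  classical
  have := Fintype.ofFinite Q
  let R := Fin (n - 2 * Nat.card Q)
  have hR : Fintype.card R = n - 2 * Nat.card Q := Fintype.card_fin _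
  have hcard : Fintype.card ((Q ⊕ Q) ⊕ R) = n := by
    rw [Fintype.card_sum, Fintype.card_sum, hR, ← Nat.card_eq_fintype_card]
    omega
  let e : (Q ⊕ Q) ⊕ R ≃ Fin n := Fintype.equivFinOfCardEq hcard
  let σ : Q →* Equiv.Perm Q := MulAction.toPermHom Q Q
  have hσ : Function.Injective σ := by
    intro a b hab
    have := congrArg (fun p : Equiv.Perm Q => p 1) hab
    simpa [σ] using this
  let h : Q →* Equiv.Perm (Fin n) :=
    (e.permCongrHom.toMonoidHom).comp ((Equiv.Perm.sumCongrHom (Q ⊕ Q) R).comp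
      (MonoidHom.prod ((Equiv.Perm.sumCongrHom Q Q).comp (σ.prod σ)) 1))
  have hh : ∀ g, h g = e.permCongr (Equiv.Perm.sumCongr (Equiv.Perm.sumCongr (σ g) (σ g)) 1) := fun _ => rfl
  have hmem : ∀ g, h g ∈ alternatingGroup (Fin n) := by
    intro g
    rw [Equiv.Perm.mem_alternatingGroup, hh]
    rw [Equiv.Perm.sign_permCongr, Equiv.Perm.sign_sumCongr, Equiv.Perm.sign_sumCongr]
    simp
  refine ⟨h.codRestrict _ hmem, ?_⟩
  intro a b hab
  have h1 : h a = h b := congrArg Subtype.val hab
  apply hσ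
  ext x
  have h2 := congrArg (fun p : Equiv.Perm (Fin n) => e.symm (p (e (Sum.inl (Sum.inl x))))) h1
  simpa [hh] using h2

end Cfsg.Agent.Lib.Laws.AltEmbed
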