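/-
Injective homomorphisms between matrix groups used for the law statements:
permutation matrices, adding identity blocks, the Levi map `g ↦ g ⊕ g⁻ᵀ`.
-/
import Mathlib

set_option autoImplicit false

namespace Cfsg.Agent.Lib.Laws.Embed

open scoped MatrixGroups

open Matrix

variable {F : Type*} [Field F]

/-! ### Permutation matrices -/

section perm
variable {m : Type*} [Fintype m] [DecidableEq m]

/-- Permutation matrices as a homomorphism to units. -/
noncomputable def permHom (F : Type*) [Field F] : Equiv.Perm m →* GL m F :=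
  (Matrix.permMatrixHom (n := m) (R := F)).toHomUnits

lemma permHom_coe (σ : Equiv.Perm m) :
    ((permHom F σ : GL m F) : Matrix m m F) = (σ⁻¹).permMatrix F := rfl

lemma permHom_mulVec (σ : Equiv.Perm m) (v : m → F) :
    ((permHom F σ : GL m F) : Matrix m m F).mulVec v = v ∘ (σ⁻¹ : Equiv.Perm m) := by
  rw [permHom_coe, Matrix.permMatrix_mulVec]

lemma permHom_injective : Function.Injective (permHom (m := m) F) := by
  intro a b hab
  have h : ∀ v : m → F, v ∘ (a⁻¹ : Equiv.Perm m) = v ∘ (b⁻¹ : Equiv.Perm m) := by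
    intro v
    rw [← permHom_mulVec, ← permHom_mulVec, hab]
  have hinv : a⁻¹ = b⁻¹ := by
    ext i
    by_contra hne
    have h1 := congrFun (h (Pi.single (a⁻¹ i) 1)) i
    have h2 : b⁻¹ i = a⁻¹ i := by simpa [Pi.single_apply] using h1
    exact hne h2.symm
  exact inv_injective hinv

lemma det_permHom (σ : Equiv.Perm m) :
    ((permHom F σ : GL m F) : Matrix m m F).det = ((Equiv.Perm.sign σ : ℤˣ) : ℤ) := by
  rw [permHom_coe, Matrix.det_permutation]
  simp

end perm

/-! ### Adding identity blocks -/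

section blocks

variable {α β : Type*} [Fintype α] [Fintype β] [DecidableEq α] [DecidableEq β]

/-- `A ↦ A ⊕ 1` on matrices. -/
def sumRM : Matrix α α F →* Matrix (α ⊕ β) (α ⊕ β) F where
  toFun A := fromBlocks A 0 0 1
  map_one' := by simp
  map_mul' A B := by simp [fromBlocks_multiply]

/-- `A ↦ 1 ⊕ A` on matrices. -/
def sumLM : Matrix β β F →* Matrix (α ⊕ β) (α ⊕ β) F where
  toFun A := fromBlocks 1 0 0 A
  map_one' := by simp
  map_mul' A B := by simp [fromBlocks_multiply]

/-- `A ↦ A ⊕ 1` on units. -/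
def sumR : GL α F →* GL (α ⊕ β) F := Units.map sumRM

/-- `A ↦ 1 ⊕ A` on units. -/
def sumL : GL β F →* GL (α ⊕ β) F := Units.map sumLM

lemma sumR_coe (g : GL α F) : ((sumR g : GL (α ⊕ β) F) : Matrix (α ⊕ β) (α ⊕ β) F) = fromBlocks g.1 0 0 1 := rfl
lemma sumL_coe (g : GL β F) : ((sumL g : GL (α ⊕ β) F) : Matrix (α ⊕ β) (α ⊕ β) F) = fromBlocks 1 0 0 g.1 := rfl

lemma sumR_injective : Function.Injective (sumR (F := F) (α := α) (β := β)) := by
  intro a b hab
  apply Units.ext
  have h := congrArg (fun g : GL (α ⊕ β) F => (g : Matrix (α ⊕ β) (α ⊕ β) F)) hab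
  simp only [sumR_coe] at h
  exact (fromBlocks_inj.1 h).1

lemma sumL_injective : Function.Injective (sumL (F := F) (α := α) (β := β)) := by
  intro a b hab
  apply Units.ext
  have h := congrArg (fun g : GL (α ⊕ β) F => (g : Matrix (α ⊕ β) (α ⊕ β) F)) hab
  simp only [sumL_coe] at h
  exact (fromBlocks_inj.1 h).2.2.2

lemma sumR_mulVec (g : GL α F) (v : α ⊕ β → F) :
    ((sumR g : GL (α ⊕ β) F) : Matrix (α ⊕ β) (α ⊕ β) F).mulVec v
      = Sum.elim (g.1.mulVec (v ∘ Sum.inl)) (v ∘ Sum.inr) := by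
  rw [sumR_coe, fromBlocks_mulVec]
  simp

lemma sumL_mulVec (g : GL β F) (v : α ⊕ β → F) :
    ((sumL g : GL (α ⊕ β) F) : Matrix (α ⊕ β) (α ⊕ β) F).mulVec v
      = Sum.elim (v ∘ Sum.inl) (g.1.mulVec (v ∘ Sum.inr)) := by
  rw [sumL_coe, fromBlocks_mulVec]
  simp

end blocks

/-! ### Reindexing -/

section reindex

variable {α β : Type*} [Fintype α] [Fintype β] [DecidableEq α] [DecidableEq β]

/-- Transport of invertible matrices along a bijection of the index sets. -/
def reindexHom (e : α ≃ β) : GL α F →* GL β F :=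
  Units.map ((Matrix.reindexAlgEquiv F F e).toAlgHom.toMonoidHom)

lemma reindexHom_coe (e : α ≃ β) (g : GL α F) :
    ((reindexHom e g : GL β F) : Matrix β β F) = g.1.submatrix e.symm e.symm := rfl

lemma reindexHom_injective (e : α ≃ β) : Function.Injective (reindexHom (F := F) e) := by
  intro a b hab
  apply Units.ext
  have h := congrArg (fun g : GL β F => (g : Matrix β β F)) hab
  simp only [reindexHom_coe] at h
  ext i j
  have h1 := congrFun (congrFun h (e i)) (e j)
  simpa using h1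

lemma reindexHom_mulVec (e : α ≃ β) (g : GL α F) (v : β → F) :
    ((reindexHom e g : GL β F) : Matrix β β F).mulVec v = (g.1.mulVec (v ∘ e)) ∘ e.symm := by
  rw [reindexHom_coe, Matrix.submatrix_mulVec_equiv]
  rfl

lemma det_reindexHom (e : α ≃ β) (g : GL α F) :
    ((reindexHom e g : GL β F) : Matrix β β F).det = g.1.det := by
  rw [reindexHom_coe, Matrix.det_submatrix_equiv_self]

end reindex

/-! ### The Levi map -/

section levi

variable {m : Type*} [Fintype m] [DecidableEq m]

/-- `g ↦ g ⊕ g⁻ᵀ`. -/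
def levi : GL m F →* GL (m ⊕ m) F where
  toFun g := ⟨fromBlocks g.1 0 0 (g⁻¹).1ᵀ, fromBlocks (g⁻¹).1 0 0 g.1ᵀ,
    by
      have h1 : g.1 * (g⁻¹).1 = 1 := by simp
      have h2 : (g⁻¹).1 * g.1 = 1 := by simp
      rw [fromBlocks_multiply]
      simp only [mul_zero, zero_mul, add_zero, zero_add, h1]
      rw [← transpose_mul, h1]
      simp,
    by
      have h1 : g.1 * (g⁻¹).1 = 1 := by simp
      have h2 : (g⁻¹).1 * g.1 = 1 := by simp
      rw [fromBlocks_multiply]
      simp only [mul_zero, zero_mul, add_zero, zero_add, h2]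
      rw [← transpose_mul, h2]
      simp⟩
  map_one' := by
    apply Units.ext
    simp
  map_mul' a b := by
    apply Units.ext
    change fromBlocks (a * b).1 0 0 ((a * b)⁻¹).1ᵀ = fromBlocks a.1 0 0 (a⁻¹).1ᵀ * fromBlocks b.1 0 0 (b⁻¹).1ᵀ
    rw [fromBlocks_multiply, _root_.mul_inv_rev, Units.val_mul, Units.val_mul, transpose_mul]
    simp

lemma levi_coe (g : GL m F) :
    ((levi g : GL (m ⊕ m) F) : Matrix (m ⊕ m) (m ⊕ m) F) = fromBlocks g.1 0 0 (g⁻¹).1ᵀ := rfl

lemma levi_injective : Function.Injective (levi (F := F) (m := m)) := by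
  intro a b hab
  apply Units.ext
  have h := congrArg (fun g : GL (m ⊕ m) F => (g : Matrix (m ⊕ m) (m ⊕ m) F)) hab
  simp only [levi_coe] at h
  exact (fromBlocks_inj.1 h).1

lemma levi_mulVec (g : GL m F) (v : m ⊕ m → F) :
    ((levi g : GL (m ⊕ m) F) : Matrix (m ⊕ m) (m ⊕ m) F).mulVec v
      = Sum.elim (g.1.mulVec (v ∘ Sum.inl)) ((g⁻¹).1ᵀ.mulVec (v ∘ Sum.inr)) := by
  rw [levi_coe, fromBlocks_mulVec]
  simp

/-- The pairing `∑ xᵢyᵢ` is invariant under the Levi map. -/
lemma dot_levi (g : GL m F) (x y : m → F) :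
    (g.1.mulVec x) ⬝ᵥ ((g⁻¹).1ᵀ.mulVec y) = x ⬝ᵥ y := by
  rw [Matrix.dotProduct_mulVec, Matrix.vecMul_transpose, Matrix.mulVec_mulVec]
  have h2 : (g⁻¹).1 * g.1 = 1 := by simp
  rw [h2, Matrix.one_mulVec]

lemma levi_mem_symplectic (g : GL m F) :
    ((levi g : GL (m ⊕ m) F) : Matrix (m ⊕ m) (m ⊕ m) F) ∈ Matrix.symplecticGroup m F := by
  rw [SymplecticGroup.mem_iff, levi_coe]
  have h1 : g.1 * (g⁻¹).1 = 1 := by simp
  have h2 : ((g⁻¹).1)ᵀ * (g.1)ᵀ = 1 := by
    rw [← transpose_mul]
    simp [h1]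
  generalize (g⁻¹).1 = Ai at h1 h2
  simp [Matrix.J, fromBlocks_multiply, fromBlocks_transpose, h1, h2]

/-- The Levi map into the symplectic group. -/
def leviSp : GL m F →* Matrix.symplecticGroup m F :=
  MonoidHom.mk' (fun g => ⟨(levi g : GL (m ⊕ m) F).1, levi_mem_symplectic g⟩) (by
    intro a b
    apply Subtype.ext
    simp [map_mul])

lemma leviSp_injective : Function.Injective (leviSp (F := F) (m := m)) := by
  intro a b hab
  apply levi_injective
  apply Units.ext
  exact congrArg Subtype.val hab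

end levi

end Cfsg.Agent.Lib.Laws.Embed
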