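/-
Ping-pong in `SL₂` over polynomial rings by degrees: a reduced word evaluated at the elements
`x_i(s) = E₁₂(s^(i+1)) E₂₁(s^(i+1))` gives a non-scalar matrix for all but few `s`, uniformly in the
field.
-/
import Mathlib

set_option autoImplicit false

namespace Cfsg.Agent.Lib.Laws.PingPong

open Polynomial

variable {F : Type*} [Field F]

/-- One step of the polynomial action. -/
noncomputable def act (i : ℕ) (b : Bool) (p : F[X] × F[X]) : F[X] × F[X] :=
  if b then (p.1 + X ^ (i + 1) * (X ^ (i + 1) * p.1 + p.2), X ^ (i + 1) * p.1 + p.2)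
  else (p.1 - X ^ (i + 1) * p.2, p.2 - X ^ (i + 1) * (p.1 - X ^ (i + 1) * p.2))

/-- The vector `(u, v)` obtained from `(1,1)` by a word. -/
noncomputable def vec : List (ℕ × Bool) → F[X] × F[X]
  | [] => (1, 1)
  | x :: L => act x.1 x.2 (vec L)

/-- The degree cost of a word. -/
def cost : List (ℕ × Bool) → ℕ
  | [] => 0
  | x :: L => 2 * (x.1 + 1) + cost L

lemma natDegree_Xk_mul {u : F[X]} (k : ℕ) (hu : u ≠ 0) : (X ^ k * u).natDegree = k + u.natDegree := by
  rw [natDegree_mul (pow_ne_zero k X_ne_zero) hu, natDegree_X_pow]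

/-- `a u + v` has degree the maximum when the degrees differ. -/
lemma add_deg {u v : F[X]} (k : ℕ) (hu : u ≠ 0) (hv : v ≠ 0) (h : u.natDegree + k ≠ v.natDegree) :
    X ^ k * u + v ≠ 0 ∧ (X ^ k * u + v).natDegree = max (k + u.natDegree) v.natDegree := by
  rcases lt_or_gt_of_ne h with h1 | h1
  · have h2 : (X ^ k * u).natDegree < v.natDegree := by
      rw [natDegree_Xk_mul k hu]; omega
    have h3 := natDegree_add_eq_right_of_natDegree_lt h2
    have hne : X ^ k * u + v ≠ 0 := by
      intro h0
      have h4 : X ^ k * u = -v := eq_neg_of_add_eq_zero_left h0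
      rw [h4, natDegree_neg] at h2
      exact lt_irrefl _ h2
    refine ⟨hne, ?_⟩
    rw [h3]
    omega
  · have h2 : v.natDegree < (X ^ k * u).natDegree := by
      rw [natDegree_Xk_mul k hu]; omega
    have h3 := natDegree_add_eq_left_of_natDegree_lt h2
    have hne : X ^ k * u + v ≠ 0 := by
      intro h0
      have h4 : X ^ k * u = -v := eq_neg_of_add_eq_zero_left h0
      rw [h4, natDegree_neg] at h2
      exact lt_irrefl _ h2
    refine ⟨hne, ?_⟩
    rw [h3, natDegree_Xk_mul k hu]
    omega

lemma sub_deg {u v : F[X]} (k : ℕ) (hu : u ≠ 0) (hv : v ≠ 0) (h : v.natDegree + k ≠ u.natDegree) :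
    u - X ^ k * v ≠ 0 ∧ (u - X ^ k * v).natDegree = max (k + v.natDegree) u.natDegree := by
  have h1 := add_deg (u := -v) (v := u) k (neg_ne_zero.2 hv) hu (by simpa using h)
  have h2 : X ^ k * -v + u = u - X ^ k * v := by ring
  rw [h2, natDegree_neg] at h1
  exact h1

/-- Step for `x_i`: the degree difference ends at `i+1`. -/
lemma step_true {u v : F[X]} (k : ℕ) (hk : 0 < k) (hu : u ≠ 0) (hv : v ≠ 0)
    (h : u.natDegree + k ≠ v.natDegree) :
    let y := X ^ k * u + v
    let u' := u + X ^ k * y
    y ≠ 0 ∧ u' ≠ 0 ∧ u'.natDegree = y.natDegree + k ∧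
      y.natDegree ≤ max u.natDegree v.natDegree + k := by
  intro y u'
  obtain ⟨hy, hyd⟩ := add_deg k hu hv h
  have hlt : u.natDegree < (X ^ k * y).natDegree := by
    rw [natDegree_Xk_mul k hy]
    have : k + u.natDegree ≤ y.natDegree := by
      rw [show y = X ^ k * u + v from rfl, hyd]; exact le_max_left _ _
    omega
  have h1 : u'.natDegree = k + y.natDegree := by
    rw [show u' = u + X ^ k * y from rfl, natDegree_add_eq_right_of_natDegree_lt hlt,
      natDegree_Xk_mul k hy]
  refine ⟨hy, ?_, by omega, ?_⟩
  · intro h0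
    rw [h0] at h1
    simp at h1
    omega
  · change (X ^ k * u + v).natDegree ≤ _
    rw [hyd]
    apply max_le
    · have := le_max_left u.natDegree v.natDegree
      omega
    · have := le_max_right u.natDegree v.natDegree
      omega

/-- Step for `x_i⁻¹`. -/
lemma step_false {u v : F[X]} (k : ℕ) (hk : 0 < k) (hu : u ≠ 0) (hv : v ≠ 0)
    (h : v.natDegree + k ≠ u.natDegree) :
    let y := u - X ^ k * v
    let v' := v - X ^ k * y
    y ≠ 0 ∧ v' ≠ 0 ∧ v'.natDegree = y.natDegree + k ∧
      y.natDegree ≤ max u.natDegree v.natDegree + k := by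
  intro y v'
  obtain ⟨hy, hyd⟩ := sub_deg k hu hv h
  have hlt : v.natDegree < (X ^ k * y).natDegree := by
    rw [natDegree_Xk_mul k hy]
    have : k + v.natDegree ≤ y.natDegree := by
      rw [show y = u - X ^ k * v from rfl, hyd]; exact le_max_left _ _
    omega
  have h1 : v'.natDegree = k + y.natDegree := by
    rw [show v' = v - X ^ k * y from rfl, natDegree_sub_eq_right_of_natDegree_lt hlt,
      natDegree_Xk_mul k hy]
  refine ⟨hy, ?_, by omega, ?_⟩
  · intro h0
    rw [h0] at h1
    simp at h1
    omega
  · change (u - X ^ k * v).natDegree ≤ _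
    rw [hyd]
    apply max_le
    · have := le_max_right u.natDegree v.natDegree
      omega
    · have := le_max_left u.natDegree v.natDegree
      omega

/-- The invariant. -/
def Inv (L : List (ℕ × Bool)) (p : F[X] × F[X]) : Prop :=
  p.1 ≠ 0 ∧ p.2 ≠ 0 ∧ max p.1.natDegree p.2.natDegree ≤ cost L ∧
  (match L with
   | [] => p.1.natDegree = p.2.natDegree
   | (i, true) :: _ => p.1.natDegree = p.2.natDegree + (i + 1)
   | (i, false) :: _ => p.2.natDegree = p.1.natDegree + (i + 1))

lemma inv_vec (L : List (ℕ × Bool)) (hL : FreeGroup.IsReduced L) : Inv L (vec (F := F) L) := by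
  induction L with
  | nil =>
    refine ⟨one_ne_zero, one_ne_zero, ?_, ?_⟩ <;> simp [vec, cost]
  | cons x L ih =>
    have hL' : FreeGroup.IsReduced L := hL.infix ⟨[x], [], by simp⟩
    obtain ⟨hu, hv, hmax, hm⟩ := ih hL'
    obtain ⟨i, b⟩ := x
    set u := (vec (F := F) L).1 with hu_def
    set v := (vec (F := F) L).2 with hv_def
    cases b with
    | true =>
      have hcond : u.natDegree + (i + 1) ≠ v.natDegree := by
        cases L with
        | nil => simp only [] at hm; omega
        | cons y L' =>
          obtain ⟨j, c⟩ := y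
          cases c with
          | true =>
            simp only [] at hm
            omega
          | false =>
            simp only [] at hm
            have hij : i ≠ j := by
              rintro rfl
              have := (FreeGroup.isReduced_cons_cons.1 hL).1 rfl
              simp at this
            omega
      obtain ⟨hy, hu', hd, hle⟩ := step_true (i + 1) (by omega) hu hv hcond
      have hvec : vec (F := F) ((i, true) :: L) = (u + X ^ (i + 1) * (X ^ (i + 1) * u + v), X ^ (i + 1) * u + v) := by
        simp [vec, act, hu_def, hv_def]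
      rw [hvec]
      refine ⟨hu', hy, ?_, ?_⟩
      · simp only [cost]
        rw [hd]
        simp only [max_le_iff]
        omega
      · simp only []
        exact hd
    | false =>
      have hcond : v.natDegree + (i + 1) ≠ u.natDegree := by
        cases L with
        | nil => simp only [] at hm; omega
        | cons y L' =>
          obtain ⟨j, c⟩ := y
          cases c with
          | false =>
            simp only [] at hm
            omega
          | true =>
            simp only [] at hm
            have hij : i ≠ j := by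
              rintro rfl
              have := (FreeGroup.isReduced_cons_cons.1 hL).1 rfl
              simp at this
            omega
      obtain ⟨hy, hv', hd, hle⟩ := step_false (i + 1) (by omega) hu hv hcond
      have hvec : vec (F := F) ((i, false) :: L) = (u - X ^ (i + 1) * v, v - X ^ (i + 1) * (u - X ^ (i + 1) * v)) := by
        simp [vec, act, hu_def, hv_def]
      rw [hvec]
      refine ⟨hy, hv', ?_, ?_⟩
      · simp only [cost]
        rw [hd]
        simp only [max_le_iff]
        omega
      · simp only []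
        exact hd

/-- The element `x_i(s)` of `SL₂`. -/
def xEl (s : F) (i : ℕ) : Matrix.SpecialLinearGroup (Fin 2) F :=
  ⟨!![1 + s ^ (i + 1) * s ^ (i + 1), s ^ (i + 1); s ^ (i + 1), 1], by
    simp [Matrix.det_fin_two]⟩

lemma xEl_coe (s : F) (i : ℕ) : ((xEl s i : Matrix.SpecialLinearGroup (Fin 2) F) : Matrix (Fin 2) (Fin 2) F)
    = !![1 + s ^ (i + 1) * s ^ (i + 1), s ^ (i + 1); s ^ (i + 1), 1] := rfl

lemma xEl_inv_coe (s : F) (i : ℕ) :
    (((xEl s i)⁻¹ : Matrix.SpecialLinearGroup (Fin 2) F) : Matrix (Fin 2) (Fin 2) F)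
      = !![1, -s ^ (i + 1); -s ^ (i + 1), 1 + s ^ (i + 1) * s ^ (i + 1)] := by
  rw [Matrix.SpecialLinearGroup.coe_inv, xEl_coe, Matrix.adjugate_fin_two_of]

/-- The matrix of a word applied to `(1,1)` is the evaluation of `vec`. -/
lemma word_mulVec (s : F) (L : List (ℕ × Bool)) :
    ((L.map fun x => cond x.2 (xEl s x.1) (xEl s x.1)⁻¹).prod : Matrix.SpecialLinearGroup (Fin 2) F).1.mulVec ![1, 1]
      = ![(vec L).1.eval s, (vec L).2.eval s] := by
  induction L with
  | nil =>
    simp only [List.map_nil, List.prod_nil, vec]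
    ext i
    fin_cases i <;> simp
  | cons x L ih =>
    obtain ⟨i, b⟩ := x
    rw [List.map_cons, List.prod_cons, Matrix.SpecialLinearGroup.coe_mul, ← Matrix.mulVec_mulVec, ih]
    cases b with
    | true =>
      simp only [cond_true, xEl_coe, vec, act, if_true]
      ext j
      fin_cases j <;> simp [Matrix.mulVec, dotProduct, Fin.sum_univ_two] <;> ring
    | false =>
      simp only [cond_false, xEl_inv_coe, vec, act]
      ext j
      fin_cases j <;> simp [Matrix.mulVec, dotProduct, Fin.sum_univ_two] <;> ring

/-- The polynomial `u - v` of a word. -/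
noncomputable def wp (L : List (ℕ × Bool)) : F[X] := (vec L).1 - (vec L).2

lemma wp_ne_zero {L : List (ℕ × Bool)} (hL : FreeGroup.IsReduced L) (hne : L ≠ []) :
    wp (F := F) L ≠ 0 := by
  obtain ⟨hu, hv, _, hm⟩ := inv_vec (F := F) L hL
  intro h0
  have h1 : (vec (F := F) L).1 = (vec (F := F) L).2 := sub_eq_zero.1 h0
  rw [h1] at hm
  cases L with
  | nil => exact hne rfl
  | cons y L' =>
    obtain ⟨j, c⟩ := y
    cases c <;> simp only [] at hm <;> omega

lemma wp_natDegree_le {L : List (ℕ × Bool)} (hL : FreeGroup.IsReduced L) :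
    (wp (F := F) L).natDegree ≤ cost L := by
  obtain ⟨_, _, hmax, _⟩ := inv_vec (F := F) L hL
  have h1 := natDegree_sub_le (vec (F := F) L).1 (vec (F := F) L).2
  exact le_trans h1 hmax

/-- Value of the free-group map on an element given through its word. -/
lemma lift_eq_prod {G : Type*} [Group G] (f : ℕ → G) (w : FreeGroup ℕ) :
    FreeGroup.lift f w = (w.toWord.map fun x => cond x.2 (f x.1) (f x.1)⁻¹).prod := by
  conv_lhs => rw [← FreeGroup.mk_toWord (x := w)]
  rw [FreeGroup.lift_mk]

/-- Main statement: if `s` is not a root of `wp`, the word value at `xEl s` is not scalar. -/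
theorem lift_not_scalar (s : F) (w : FreeGroup ℕ)
    (hs : (wp (F := F) w.toWord).eval s ≠ 0) (c : F) :
    (FreeGroup.lift (xEl s) w : Matrix.SpecialLinearGroup (Fin 2) F).1 ≠ Matrix.scalar (Fin 2) c := by
  intro h
  have h1 := word_mulVec s w.toWord
  rw [← lift_eq_prod, h] at h1
  have h2 := congrFun h1 0
  have h3 := congrFun h1 1
  simp [Matrix.scalar_apply, Matrix.mulVec_diagonal] at h2 h3
  apply hs
  simp only [wp, eval_sub]
  rw [← h2, ← h3, sub_self]

/-- Bound: when the field (or any subset of it) has enough elements, a good `s` exists. -/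
theorem exists_good_s [Fintype F] (w : FreeGroup ℕ) (hw : w ≠ 1) (hcard : cost w.toWord < Fintype.card F) :
    ∃ s : F, (wp (F := F) w.toWord).eval s ≠ 0 := by
  have hne : w.toWord ≠ [] := fun h => hw (FreeGroup.toWord_eq_nil_iff.1 h)
  have h0 := wp_ne_zero (F := F) (FreeGroup.isReduced_toWord (x := w)) hne
  have hdeg := wp_natDegree_le (F := F) (FreeGroup.isReduced_toWord (x := w))
  obtain ⟨s, hs⟩ := Polynomial.exists_eval_ne_zero_of_natDegree_lt_card _ h0 (by
    calc ((wp (F := F) w.toWord).natDegree : Cardinal) ≤ (cost w.toWord : Cardinal) := by exact_mod_cast hdeg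
      _ < (Fintype.card F : Cardinal) := by exact_mod_cast hcard
      _ = Cardinal.mk F := by simp)
  exact ⟨s, hs⟩

end Cfsg.Agent.Lib.Laws.PingPong
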