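/-
`NoLaw H w`: the word `w` takes a non-central value in `H`. Transfer along injective homomorphisms;
the sources used for the classical groups: alternating groups and subgroups of `SL₂(F)`.
-/
import Cfsg.Agent.Lib.Laws.PingPong
import Cfsg.Agent.Lib.Laws.AltEmbed
import Cfsg.Agent.Lib.Laws.Embed
import Mathlib

set_option autoImplicit false

namespace Cfsg.Agent.Lib.Laws.Core

open Cfsg.Agent.Lib.Laws.PingPong Cfsg.Agent.Lib.Laws.AltEmbed Cfsg.Agent.Lib.Laws.Embed

open scoped MatrixGroups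

/-- The word `w` takes a non-central value in `H`. -/
def NoLaw (H : Type*) [Group H] (w : FreeGroup ℕ) : Prop :=
  ∃ g : ℕ → H, FreeGroup.lift g w ∉ Subgroup.center H

lemma lift_comp {H K : Type*} [Group H] [Group K] (ι : H →* K) (g : ℕ → H) (w : FreeGroup ℕ) :
    FreeGroup.lift (fun i => ι (g i)) w = ι (FreeGroup.lift g w) := by
  have : (FreeGroup.lift (fun i => ι (g i))) = ι.comp (FreeGroup.lift g) := by
    apply FreeGroup.ext_hom
    intro a
    simp
  rw [this]
  rfl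

lemma NoLaw.map {H K : Type*} [Group H] [Group K] {w : FreeGroup ℕ} (ι : H →* K)
    (hι : Function.Injective ι) (h : NoLaw H w) : NoLaw K w := by
  obtain ⟨g, hg⟩ := h
  refine ⟨fun i => ι (g i), ?_⟩
  rw [lift_comp]
  intro hc
  apply hg
  rw [Subgroup.mem_center_iff] at hc ⊢
  intro x
  apply hι
  simpa using hc (ι x)

lemma NoLaw.quot {K : Type*} [Group K] {w : FreeGroup ℕ} (h : NoLaw K w) :
    ∃ f : ℕ → K ⧸ Subgroup.center K, FreeGroup.lift f w ≠ 1 := by
  obtain ⟨g, hg⟩ := h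
  let π : K →* K ⧸ Subgroup.center K := QuotientGroup.mk' _
  refine ⟨fun i => π (g i), ?_⟩
  rw [lift_comp]
  intro h1
  exact hg ((QuotientGroup.eq_one_iff _).1 h1)

/-- If `w` is a law in `G ≃ K/Z(K)` then `w` has central values in `K`. -/
lemma not_noLaw_of_law {G K : Type*} [Group G] [Group K] {w : FreeGroup ℕ}
    (e : G ≃* K ⧸ Subgroup.center K) (hlaw : ∀ f : ℕ → G, FreeGroup.lift f w = 1) : ¬ NoLaw K w := by
  intro h
  obtain ⟨f, hf⟩ := h.quot
  apply hf
  have h1 := hlaw (fun i => e.symm (f i))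
  have h2 := lift_comp e.symm.toMonoidHom f w
  simp only [MulEquiv.coe_toMonoidHom] at h2
  rw [h2] at h1
  exact e.symm.map_eq_one_iff.1 h1

/-- Alternating groups of large degree. -/
theorem exists_alt_bound (w : FreeGroup ℕ) (hw : w ≠ 1) :
    ∃ N : ℕ, ∀ n : ℕ, N ≤ n → NoLaw (alternatingGroup (Fin n)) w := by
  obtain ⟨p, hp1, hp2⟩ := Nat.exists_infinite_primes (cost w.toWord + 1)
  have : Fact p.Prime := ⟨hp2⟩
  obtain ⟨s, hs⟩ := exists_good_s (F := ZMod p) w hw (by rw [ZMod.card]; omega)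
  refine ⟨2 * Nat.card (Matrix.SpecialLinearGroup (Fin 2) (ZMod p)) + 4, ?_⟩
  intro n hn
  obtain ⟨ι, hι⟩ := exists_embedding (Matrix.SpecialLinearGroup (Fin 2) (ZMod p)) n (by omega)
  refine ⟨fun i => ι (xEl s i), ?_⟩
  rw [lift_comp]
  have hc : Subgroup.center (alternatingGroup (Fin n)) = ⊥ :=
    alternatingGroup.center_eq_bot (by simp; omega)
  rw [hc, Subgroup.mem_bot]
  intro h2
  have h3 : FreeGroup.lift (xEl s) w = 1 := hι (by rw [h2, map_one])
  have h4 := lift_not_scalar s w hs 1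
  apply h4
  rw [h3]
  simp

variable {F : Type*} [Field F]

/-- The elementary matrix `E₀₁(t)`. -/
def E01 (t : F) : Matrix.SpecialLinearGroup (Fin 2) F := ⟨!![1, t; 0, 1], by simp [Matrix.det_fin_two]⟩
/-- The elementary matrix `E₁₀(t)`. -/
def E10 (t : F) : Matrix.SpecialLinearGroup (Fin 2) F := ⟨!![1, 0; t, 1], by simp [Matrix.det_fin_two]⟩

lemma xEl_eq (s : F) (i : ℕ) : xEl s i = E01 (s ^ (i + 1)) * E10 (s ^ (i + 1)) := by
  apply Subtype.ext
  rw [xEl_coe, Matrix.SpecialLinearGroup.coe_mul]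
  simp [E01, E10, Matrix.mul_fin_two]

/-- Source of non-central values in `SL₂`. -/
theorem noLaw_sub_sl2 (S : Subgroup (Matrix.SpecialLinearGroup (Fin 2) F)) (w : FreeGroup ℕ) (s : F)
    (hs : (wp (F := F) w.toWord).eval s ≠ 0) (hx : ∀ i, xEl s i ∈ S)
    (h01 : E01 (1 : F) ∈ S) (h10 : E10 (1 : F) ∈ S) : NoLaw S w := by
  refine ⟨fun i => ⟨xEl s i, hx i⟩, ?_⟩
  have hval : ((FreeGroup.lift (fun i => (⟨xEl s i, hx i⟩ : S)) w : S) : Matrix.SpecialLinearGroup (Fin 2) F)
      = FreeGroup.lift (xEl s) w := by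
    have := lift_comp S.subtype (fun i => (⟨xEl s i, hx i⟩ : S)) w
    simpa using this.symm
  intro hc
  rw [Subgroup.mem_center_iff] at hc
  have c1 := hc ⟨E01 1, h01⟩
  have c2 := hc ⟨E10 1, h10⟩
  have c1' := congrArg (fun x : S => ((x : Matrix.SpecialLinearGroup (Fin 2) F) : Matrix (Fin 2) (Fin 2) F)) c1
  have c2' := congrArg (fun x : S => ((x : Matrix.SpecialLinearGroup (Fin 2) F) : Matrix (Fin 2) (Fin 2) F)) c2
  simp only [Subgroup.coe_mul, Matrix.SpecialLinearGroup.coe_mul, hval] at c1' c2'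
  set M := ((FreeGroup.lift (xEl s) w : Matrix.SpecialLinearGroup (Fin 2) F) : Matrix (Fin 2) (Fin 2) F) with hM
  have e1 : ((E01 (1 : F) : Matrix.SpecialLinearGroup (Fin 2) F) : Matrix (Fin 2) (Fin 2) F) = !![1, 1; 0, 1] := rfl
  have e2 : ((E10 (1 : F) : Matrix.SpecialLinearGroup (Fin 2) F) : Matrix (Fin 2) (Fin 2) F) = !![1, 0; 1, 1] := rfl
  rw [e1] at c1'
  rw [e2] at c2'
  have c10 := congrFun (congrFun c1' 0) 0
  have c11 := congrFun (congrFun c2' 0) 1
  have c12 := congrFun (congrFun c2' 0) 0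
  simp [Matrix.mul_apply, Fin.sum_univ_two] at c10 c11 c12
  have c13 := congrFun (congrFun c1' 0) 1
  simp [Matrix.mul_apply, Fin.sum_univ_two] at c13
  apply lift_not_scalar s w hs (M 0 0)
  ext i j
  fin_cases i <;> fin_cases j <;> simp [Matrix.scalar_apply, Matrix.diagonal] <;> grind

end Cfsg.Agent.Lib.Laws.Core
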