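/-
Non-central word values in the linear, symplectic and orthogonal families.
-/
import Cfsg.Prelude.Def_Classical
import Cfsg.Agent.Lib.Laws.Core
import Mathlib

set_option autoImplicit false

namespace Cfsg.Agent.Lib.Laws.Families

open Cfsg Cfsg.Agent.Lib.Laws.PingPong Cfsg.Agent.Lib.Laws.Embed Cfsg.Agent.Lib.Laws.Core
open scoped MatrixGroups Matrix
open Matrix

variable {F : Type*} [Field F]

/-! ### Block embeddings -/

/-- Index bijection. -/
def finE (k m : ℕ) (h : k ≤ m) : Fin k ⊕ Fin (m - k) ≃ Fin m :=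
  finSumFinEquiv.trans (finCongr (by omega))

/-- `g ↦ g ⊕ 1`. -/
def blk {k m : ℕ} (h : k ≤ m) : GL (Fin k) F →* GL (Fin m) F :=
  (reindexHom (finE k m h)).comp sumR

lemma blk_injective {k m : ℕ} (h : k ≤ m) : Function.Injective (blk (F := F) h) :=
  (reindexHom_injective _).comp sumR_injective

lemma det_blk {k m : ℕ} (h : k ≤ m) (g : GL (Fin k) F) :
    ((blk h g : GL (Fin m) F) : Matrix (Fin m) (Fin m) F).det = g.1.det := by
  change ((reindexHom (finE k m h) (sumR g) : GL (Fin m) F) : Matrix (Fin m) (Fin m) F).det = _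
  rw [det_reindexHom, sumR_coe, Matrix.det_fromBlocks_zero₂₁, Matrix.det_one, mul_one]

lemma toGL_coe {n : ℕ} (A : Matrix.SpecialLinearGroup (Fin n) F) :
    ((Matrix.SpecialLinearGroup.toGL A : GL (Fin n) F) : Matrix (Fin n) (Fin n) F) = A.1 := rfl

lemma toGL_injective' {n : ℕ} : Function.Injective (Matrix.SpecialLinearGroup.toGL (n := Fin n) (R := F)) := by
  intro a b hab
  apply Subtype.ext
  have := congrArg (fun g : GL (Fin n) F => (g : Matrix (Fin n) (Fin n) F)) hab
  simpa [toGL_coe] using this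

/-- `A ↦ A ⊕ 1` from `SL_k` to `SL_m`. -/
def blkSL {k m : ℕ} (h : k ≤ m) : Matrix.SpecialLinearGroup (Fin k) F →* Matrix.SpecialLinearGroup (Fin m) F :=
  MonoidHom.mk' (fun A => ⟨(blk h (Matrix.SpecialLinearGroup.toGL A) : GL (Fin m) F).1, by
      rw [det_blk, toGL_coe]; exact A.2⟩) (by
    intro a b
    apply Subtype.ext
    change (blk h (Matrix.SpecialLinearGroup.toGL (a * b)) : GL (Fin m) F).1 =
      (blk h (Matrix.SpecialLinearGroup.toGL a) : GL (Fin m) F).1 * (blk h (Matrix.SpecialLinearGroup.toGL b) : GL (Fin m) F).1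
    simp [map_mul])

lemma blkSL_injective {k m : ℕ} (h : k ≤ m) : Function.Injective (blkSL (F := F) h) := by
  intro a b hab
  apply toGL_injective'
  apply blk_injective h
  apply Units.ext
  exact congrArg Subtype.val hab

/-- Even permutation matrices in `SL_n`. -/
noncomputable def altSL (n : ℕ) (F : Type*) [Field F] : alternatingGroup (Fin n) →* Matrix.SpecialLinearGroup (Fin n) F :=
  MonoidHom.mk' (fun σ => ⟨(permHom F σ.1 : GL (Fin n) F).1, by
      rw [det_permHom]
      have : Equiv.Perm.sign σ.1 = 1 := σ.2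
      simp [this]⟩) (by
    intro a b
    apply Subtype.ext
    change (permHom F (a * b).1 : GL (Fin n) F).1 = (permHom F a.1 : GL (Fin n) F).1 * (permHom F b.1 : GL (Fin n) F).1
    simp [map_mul])

lemma altSL_injective (n : ℕ) : Function.Injective (altSL n F) := by
  intro a b hab
  apply Subtype.ext
  apply permHom_injective (F := F)
  apply Units.ext
  exact congrArg Subtype.val hab

/-! ### Sources -/

/-- A good point `s` exists when the field is large. -/
lemma exists_s [Fintype F] (w : FreeGroup ℕ) (hw : w ≠ 1) (hF : cost w.toWord < Fintype.card F) :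
    ∃ s : F, (wp (F := F) w.toWord).eval s ≠ 0 :=
  exists_good_s w hw hF

lemma noLaw_SL2 [Fintype F] (w : FreeGroup ℕ) (hw : w ≠ 1) (hF : cost w.toWord < Fintype.card F) :
    NoLaw (Matrix.SpecialLinearGroup (Fin 2) F) w := by
  obtain ⟨s, hs⟩ := exists_s (F := F) w hw hF
  have h := noLaw_sub_sl2 (⊤ : Subgroup (Matrix.SpecialLinearGroup (Fin 2) F)) w s hs (fun _ => trivial) trivial trivial
  exact h.map (⊤ : Subgroup (Matrix.SpecialLinearGroup (Fin 2) F)).subtype (Subgroup.subtype_injective _)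

/-- Linear case. -/
lemma noLaw_SL_of_field [Fintype F] (w : FreeGroup ℕ) (hw : w ≠ 1) (hF : cost w.toWord < Fintype.card F)
    {n : ℕ} (hn : 2 ≤ n) : NoLaw (Matrix.SpecialLinearGroup (Fin n) F) w :=
  (noLaw_SL2 w hw hF).map (blkSL hn) (blkSL_injective hn)

lemma noLaw_SL_of_rank (w : FreeGroup ℕ) {n : ℕ} (h : NoLaw (alternatingGroup (Fin n)) w) :
    NoLaw (Matrix.SpecialLinearGroup (Fin n) F) w :=
  h.map (altSL n F) (altSL_injective n)

/-- General linear groups. -/
lemma noLaw_GL_of_SL {n : ℕ} {w : FreeGroup ℕ} (h : NoLaw (Matrix.SpecialLinearGroup (Fin n) F) w) : NoLaw (GL (Fin n) F) w :=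
  h.map Matrix.SpecialLinearGroup.toGL toGL_injective'

/-- Symplectic case. -/
lemma noLaw_Sp {n : ℕ} {w : FreeGroup ℕ} (h : NoLaw (GL (Fin n) F) w) :
    NoLaw (Matrix.symplecticGroup (Fin n) F) w :=
  h.map leviSp leviSp_injective

/-! ### Commutators -/

lemma map_mem_commutator {G K : Type*} [Group G] [Group K] (f : G →* K) {y : G}
    (hy : y ∈ commutator G) : f y ∈ commutator K := by
  have h1 : f y ∈ (commutator G).map f := Subgroup.mem_map_of_mem f hy
  rw [_root_.map_commutator_eq] at h1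
  exact Subgroup.commutator_mono le_top le_top h1

/-- Embedding of `SL₂` in `SL₃`. -/
def B2 : Matrix.SpecialLinearGroup (Fin 2) F →* Matrix.SpecialLinearGroup (Fin 3) F := blkSL (by norm_num)

lemma B2_injective : Function.Injective (B2 (F := F)) := blkSL_injective _

lemma B2_coe (A : Matrix.SpecialLinearGroup (Fin 2) F) :
    ((B2 A : Matrix.SpecialLinearGroup (Fin 3) F) : Matrix (Fin 3) (Fin 3) F) =
      !![A.1 0 0, A.1 0 1, 0; A.1 1 0, A.1 1 1, 0; 0, 0, 1] := by
  change (reindexHom (finE 2 3 _) (sumR (Matrix.SpecialLinearGroup.toGL A)) : GL (Fin 3) F).1 = _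
  rw [reindexHom_coe, sumR_coe, toGL_coe]
  ext a b
  fin_cases a <;> fin_cases b <;> simp [finE, Matrix.submatrix_apply, finSumFinEquiv, Fin.addCases]

/-- Elementary matrices in `SL₃`, as explicit `3 × 3` matrices. -/
def E3 (i j : Fin 3) (hij : i ≠ j) (t : F) : Matrix.SpecialLinearGroup (Fin 3) F :=
  Matrix.SpecialLinearGroup.transvection hij t

lemma E3_inv (i j : Fin 3) (hij : i ≠ j) (t : F) : (E3 i j hij t)⁻¹ = E3 i j hij (-t) :=
  Matrix.SpecialLinearGroup.transvection_inv hij t

lemma E3_comm (i j k : Fin 3) (hij : i ≠ j) (hik : i ≠ k) (hkj : k ≠ j) (t : F) :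
    E3 i k hik t * E3 k j hkj (1 : F) * (E3 i k hik t)⁻¹ * (E3 k j hkj (1 : F))⁻¹ = E3 i j hij t := by
  rw [E3_inv, E3_inv]
  apply Subtype.ext
  simp only [Matrix.SpecialLinearGroup.coe_mul, E3, Matrix.SpecialLinearGroup.transvection_coe]
  ext a b
  fin_cases i <;> fin_cases j <;> fin_cases k <;> simp_all <;>
    fin_cases a <;> fin_cases b <;> simp [Matrix.mul_apply, Fin.sum_univ_three, Matrix.one_apply, Matrix.single]

lemma E3_mem (i j : Fin 3) (hij : i ≠ j) (t : F) : E3 i j hij t ∈ commutator (Matrix.SpecialLinearGroup (Fin 3) F) := by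
  obtain ⟨k, hik, hjk⟩ : ∃ k : Fin 3, i ≠ k ∧ k ≠ j := by
    revert i j
    decide
  rw [← E3_comm i j k hij hik hjk t]
  exact Subgroup.commutator_mem_commutator (Subgroup.mem_top _) (Subgroup.mem_top _)

lemma B2_E01 (t : F) : B2 (E01 t) = E3 0 1 (by decide) t := by
  apply Subtype.ext
  rw [B2_coe]
  simp only [E3, Matrix.SpecialLinearGroup.transvection_coe, E01]
  ext a b
  fin_cases a <;> fin_cases b <;> simp [Matrix.single]

lemma B2_E10 (t : F) : B2 (E10 t) = E3 1 0 (by decide) t := by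
  apply Subtype.ext
  rw [B2_coe]
  simp only [E3, Matrix.SpecialLinearGroup.transvection_coe, E10]
  ext a b
  fin_cases a <;> fin_cases b <;> simp [Matrix.single]

/-! ### Orthogonal groups -/

section omega

variable {ι : Type} [Fintype ι] [DecidableEq ι] {Q : (ι → F) → F}

lemma mem_isometry (g : GL ι F) (h : ∀ u, Q (g.1 *ᵥ u) = Q u) : g ∈ isometryGroup F Q := by
  intro u _
  exact h u

/-- Alternating subgroups of orthogonal groups lie in `Ω`. -/
theorem noLaw_omega_of_alt {m : ℕ} (φ : GL (Fin m) F →* isometryGroup F Q)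
    (hφ : Function.Injective φ) (hm : 5 ≤ m) {w : FreeGroup ℕ}
    (h : NoLaw (alternatingGroup (Fin m)) w) : NoLaw (Omega F Q) w := by
  let f : alternatingGroup (Fin m) →* isometryGroup F Q :=
    (φ.comp (permHom F)).comp (alternatingGroup (Fin m)).subtype
  have hf : ∀ y, f y ∈ Omega F Q := by
    intro y
    apply map_mem_commutator f
    rw [commutator_alternatingGroup_eq_top (by simpa using hm)]
    trivial
  refine h.map (f.codRestrict _ hf) ?_
  intro a b hab
  have h1 : f a = f b := congrArg Subtype.val hab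
  exact Subtype.ext (permHom_injective (hφ h1))

/-- Commutators of `SL₃` inside `SL₂` when the field is large. -/
theorem noLaw_omega_of_field [Fintype F] {m : ℕ} (φ : GL (Fin m) F →* isometryGroup F Q)
    (hφ : Function.Injective φ) (hm : 3 ≤ m) (w : FreeGroup ℕ) (hw : w ≠ 1)
    (hF : cost w.toWord < Fintype.card F) : NoLaw (Omega F Q) w := by
  obtain ⟨s, hs⟩ := exists_s (F := F) w hw hF
  let ψ : Matrix.SpecialLinearGroup (Fin 3) F →* isometryGroup F Q :=
    φ.comp ((blk hm).comp Matrix.SpecialLinearGroup.toGL)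
  have hψ : Function.Injective ψ := hφ.comp ((blk_injective hm).comp toGL_injective')
  let S₁ : Subgroup (Matrix.SpecialLinearGroup (Fin 2) F) :=
    (commutator (Matrix.SpecialLinearGroup (Fin 3) F)).comap B2
  have h01 : ∀ t : F, E01 t ∈ S₁ := fun t => by
    rw [Subgroup.mem_comap, B2_E01]
    exact E3_mem _ _ _ _
  have h10 : ∀ t : F, E10 t ∈ S₁ := fun t => by
    rw [Subgroup.mem_comap, B2_E10]
    exact E3_mem _ _ _ _
  have hNL : NoLaw S₁ w := noLaw_sub_sl2 S₁ w s hs
    (fun i => by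
      rw [xEl_eq]
      exact S₁.mul_mem (h01 _) (h10 _)) (h01 _) (h10 _)
  let f : S₁ →* isometryGroup F Q := ψ.comp (B2.comp S₁.subtype)
  have hf : ∀ y, f y ∈ Omega F Q := fun y => map_mem_commutator ψ y.2
  refine hNL.map (f.codRestrict _ hf) ?_
  intro a b hab
  have h1 : f a = f b := congrArg Subtype.val hab
  exact Subtype.ext (B2_injective (hψ h1))

/-- Make the homomorphism into the isometry group. -/
def toIso {m : ℕ} (φ : GL (Fin m) F →* GL ι F) (h : ∀ g u, Q ((φ g).1 *ᵥ u) = Q u) :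
    GL (Fin m) F →* isometryGroup F Q :=
  φ.codRestrict _ (fun g => mem_isometry _ (h g))

lemma toIso_injective {m : ℕ} (φ : GL (Fin m) F →* GL ι F) (h : ∀ g u, Q ((φ g).1 *ᵥ u) = Q u)
    (hφ : Function.Injective φ) : Function.Injective (toIso φ h) := by
  intro a b hab
  exact hφ (congrArg Subtype.val hab)

end omega

/-- Levi map in type `D_m`. -/
lemma levi_plus {m : ℕ} (g : GL (Fin m) F) (u : Fin m ⊕ Fin m → F) :
    quadFormPlus m F ((levi g : GL (Fin m ⊕ Fin m) F).1 *ᵥ u) = quadFormPlus m F u := by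
  rw [levi_mulVec]
  have := dot_levi g (u ∘ Sum.inl) (u ∘ Sum.inr)
  simpa [quadFormPlus, dotProduct] using this

/-- Levi map in type `B_m`. -/
lemma levi_odd {m : ℕ} (g : GL (Fin m) F) (u : Unit ⊕ (Fin m ⊕ Fin m) → F) :
    quadFormOdd m F ((sumL (levi g) : GL (Unit ⊕ (Fin m ⊕ Fin m)) F).1 *ᵥ u) = quadFormOdd m F u := by
  rw [sumL_mulVec, levi_mulVec]
  have := dot_levi g ((u ∘ Sum.inr) ∘ Sum.inl) ((u ∘ Sum.inr) ∘ Sum.inr)
  simpa [quadFormOdd, dotProduct] using this

/-- Levi map in type `²D_m`. -/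
lemma levi_minus {m : ℕ} (a b : F) (g : GL (Fin m) F) (u : (Fin m ⊕ Fin m) ⊕ Fin 2 → F) :
    quadFormMinus m F a b ((sumR (levi g) : GL ((Fin m ⊕ Fin m) ⊕ Fin 2) F).1 *ᵥ u) = quadFormMinus m F a b u := by
  rw [sumR_mulVec, levi_mulVec]
  have := dot_levi g ((u ∘ Sum.inl) ∘ Sum.inl) ((u ∘ Sum.inl) ∘ Sum.inr)
  simpa [quadFormMinus, dotProduct] using this

/-- Isometries for the plus form. -/
def isoPlus (m : ℕ) (F : Type*) [Field F] : GL (Fin m) F →* isometryGroup F (quadFormPlus m F) :=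
  toIso levi levi_plus

/-- Isometries for the odd form. -/
def isoOdd (m : ℕ) (F : Type*) [Field F] : GL (Fin m) F →* isometryGroup F (quadFormOdd m F) :=
  toIso (sumL.comp levi) levi_odd

/-- Isometries for the minus form. -/
def isoMinus (m : ℕ) (F : Type*) [Field F] (a b : F) : GL (Fin m) F →* isometryGroup F (quadFormMinus m F a b) :=
  toIso (sumR.comp levi) (levi_minus a b)

lemma isoPlus_injective (m : ℕ) : Function.Injective (isoPlus m F) :=
  toIso_injective _ _ levi_injective

lemma isoOdd_injective (m : ℕ) : Function.Injective (isoOdd m F) :=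
  toIso_injective _ _ (sumL_injective.comp levi_injective)

lemma isoMinus_injective (m : ℕ) (a b : F) : Function.Injective (isoMinus m F a b) :=
  toIso_injective _ _ (sumR_injective.comp levi_injective)

/-! ### Symplectic -/

lemma noLaw_Sp_of_field [Fintype F] (w : FreeGroup ℕ) (hw : w ≠ 1) (hF : cost w.toWord < Fintype.card F)
    {n : ℕ} (hn : 2 ≤ n) : NoLaw (Matrix.symplecticGroup (Fin n) F) w :=
  noLaw_Sp (noLaw_GL_of_SL (noLaw_SL_of_field w hw hF hn))

lemma noLaw_Sp_of_rank (w : FreeGroup ℕ) {n : ℕ} (h : NoLaw (alternatingGroup (Fin n)) w) :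
    NoLaw (Matrix.symplecticGroup (Fin n) F) w :=
  noLaw_Sp (noLaw_GL_of_SL (noLaw_SL_of_rank w h))

/-! ### Cardinality -/

omit [Field F] in
lemma card_matrix_le {ι X : Type*} [Fintype ι] [DecidableEq ι] [Fintype F] {D c : ℕ}
    (hD : Fintype.card ι ≤ D) (hc : Fintype.card F ≤ c) (hc1 : 1 ≤ c)
    (e : X → Matrix ι ι F) (he : Function.Injective e) : Nat.card X ≤ c ^ (D ^ 2) := by
  have h1 : Nat.card X ≤ Nat.card (Matrix ι ι F) := Nat.card_le_card_of_injective e he
  have h2 : Nat.card (Matrix ι ι F) = Fintype.card F ^ (Fintype.card ι * Fintype.card ι) := by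
    change Nat.card (ι → ι → F) = _
    rw [Nat.card_eq_fintype_card, Fintype.card_fun, Fintype.card_fun, pow_mul]
  rw [h2] at h1
  refine h1.trans ?_
  calc Fintype.card F ^ (Fintype.card ι * Fintype.card ι) ≤ c ^ (Fintype.card ι * Fintype.card ι) :=
        Nat.pow_le_pow_left hc _
    _ ≤ c ^ (D ^ 2) := Nat.pow_le_pow_right hc1 (by nlinarith)

lemma card_quot_le {K : Type*} [Group K] [Finite K] (N : Subgroup K) [N.Normal] :
    Nat.card (K ⧸ N) ≤ Nat.card K :=
  Nat.card_le_card_of_surjective _ (QuotientGroup.mk_surjective (s := N))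

lemma card_of_law {G K : Type*} [Group G] [Group K] [Finite K] (N : Subgroup K) [N.Normal]
    (e : G ≃* K ⧸ N) {B : ℕ} (hB : Nat.card K ≤ B) : Nat.card G ≤ B := by
  rw [Nat.card_congr e.toEquiv]
  exact (card_quot_le N).trans hB

end Cfsg.Agent.Lib.Laws.Families
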