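/-
Degree bookkeeping for a ping-pong in the Suzuki group over `F[X]`.
The four operators below are the polynomial versions of the lower and upper root elements
of the Suzuki group with parameter `X^k` (and `θ`-twist `X^(k e)`), and of their inverses in
characteristic two.
-/
import Mathlib

set_option autoImplicit false

namespace Cfsg.Agent.Lib.Laws.SuzukiPoly

open Polynomial

variable {F : Type*} [Field F]

/-- A vector of four polynomials. -/
structure V4 (F : Type*) [Field F] where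
  a : F[X]
  b : F[X]
  c : F[X]
  d : F[X]

variable (e : ℕ)

/-- lower root element -/
noncomputable def smA (k : ℕ) (v : V4 F) : V4 F :=
  ⟨v.a, X ^ k * v.a + v.b, X ^ (k + k * e) * v.a + X ^ (k * e) * v.b + v.c,
    X ^ (2 * k + k * e) * v.a + X ^ k * v.c + v.d⟩

/-- upper root element -/
noncomputable def spA (k : ℕ) (v : V4 F) : V4 F :=
  ⟨v.a + X ^ k * v.b + X ^ (2 * k + k * e) * v.d, v.b + X ^ (k * e) * v.c + X ^ (k + k * e) * v.d,
    v.c + X ^ k * v.d, v.d⟩

/-- inverse of the lower root element -/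
noncomputable def smI (k : ℕ) (v : V4 F) : V4 F :=
  ⟨v.a, X ^ k * v.a + v.b, X ^ (k * e) * v.b + v.c,
    X ^ (2 * k + k * e) * v.a + X ^ (k + k * e) * v.b + X ^ k * v.c + v.d⟩

/-- inverse of the upper root element -/
noncomputable def spI (k : ℕ) (v : V4 F) : V4 F :=
  ⟨v.a + X ^ k * v.b + X ^ (k + k * e) * v.c + X ^ (2 * k + k * e) * v.d, v.b + X ^ (k * e) * v.c,
    v.c + X ^ k * v.d, v.d⟩

local notation "d" => Polynomial.natDegree

def Dom1 (v : V4 F) : Prop := v.a ≠ 0 ∧ d v.b ≤ d v.a ∧ d v.c ≤ d v.a ∧ d v.d ≤ d v.a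
def Dom4 (v : V4 F) : Prop := v.d ≠ 0 ∧ d v.a ≤ d v.d ∧ d v.b ≤ d v.d ∧ d v.c ≤ d v.d
def PatP (k : ℕ) (v : V4 F) : Prop :=
  v.d ≠ 0 ∧ d v.c = d v.d + k ∧ d v.b = d v.d + k + k * e ∧ d v.a = d v.d + 2 * k + k * e
def PatM (k : ℕ) (v : V4 F) : Prop :=
  v.a ≠ 0 ∧ v.d ≠ 0 ∧ d v.b = d v.a + k ∧ d v.c ≤ d v.a + k * e ∧ d v.d = d v.a + 2 * k + k * e

lemma dXm {v : F[X]} (n : ℕ) (hv : v ≠ 0) : d (X ^ n * v) = n + d v := by
  rw [natDegree_mul (pow_ne_zero n X_ne_zero) hv, natDegree_X_pow]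

lemma dXm_le (n : ℕ) (v : F[X]) : d (X ^ n * v) ≤ n + d v := by
  by_cases hv : v = 0
  · simp [hv]
  · rw [dXm n hv]

lemma d_top {t r : F[X]} (h : d r < d t) : d (t + r) = d t :=
  natDegree_add_eq_left_of_natDegree_lt h

lemma d_add_lt {p q : F[X]} {D : ℕ} (hp : d p < D) (hq : d q < D) : d (p + q) < D :=
  lt_of_le_of_lt (natDegree_add_le p q) (max_lt hp hq)

lemma d_add_le' {p q : F[X]} {D : ℕ} (hp : d p ≤ D) (hq : d q ≤ D) : d (p + q) ≤ D :=
  le_trans (natDegree_add_le p q) (max_le hp hq)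

lemma ne_zero_of_d_pos {p : F[X]} (h : 0 < d p) : p ≠ 0 := by
  rintro rfl
  simp at h

/-- `Dom1 v` gives `Dom4` after the lower root element. -/
lemma L1 (k : ℕ) (hk : 1 ≤ k) {v : V4 F} (hv : Dom1 v) : Dom4 (smA e k v) := by
  obtain ⟨h0, hb, hc, hd⟩ := hv
  have h1 : d (X ^ (2 * k + k * e) * v.a + (X ^ k * v.c + v.d)) = 2 * k + k * e + d v.a := by
    rw [d_top, dXm _ h0]
    rw [dXm _ h0]
    apply d_add_lt
    · have := dXm_le k v.c; omega
    · omega
  have h2 : (smA e k v).d = X ^ (2 * k + k * e) * v.a + (X ^ k * v.c + v.d) := by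
    simp [smA, add_assoc]
  have hb' : d (X ^ k * v.a + v.b) ≤ 2 * k + k * e + d v.a := by
    apply d_add_le'
    · have := dXm_le k v.a; omega
    · omega
  have hc' : d (X ^ (k + k * e) * v.a + X ^ (k * e) * v.b + v.c) ≤ 2 * k + k * e + d v.a := by
    apply d_add_le'
    · apply d_add_le'
      · have := dXm_le (k + k * e) v.a; omega
      · have := dXm_le (k * e) v.b; omega
    · omega
  refine ⟨?_, ?_, ?_, ?_⟩
  · rw [h2]
    apply ne_zero_of_d_pos
    rw [h1]
    omega
  · rw [h2, h1]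
    simp only [smA]
    omega
  · rw [h2, h1]
    exact hb'
  · rw [h2, h1]
    exact hc'

/-- `Dom4 v` gives the pattern `PatP` after the upper root element. -/
lemma L2 (k : ℕ) (hk : 1 ≤ k) {v : V4 F} (hv : Dom4 v) : PatP e k (spA e k v) := by
  obtain ⟨h0, ha, hb, hc⟩ := hv
  have hX : (spA e k v).d = v.d := rfl
  refine ⟨h0, ?_, ?_, ?_⟩
  · rw [hX]
    change d (v.c + X ^ k * v.d) = _
    rw [add_comm, d_top, dXm _ h0]
    · omega
    · rw [dXm _ h0]; omega
  · rw [hX]
    change d (v.b + X ^ (k * e) * v.c + X ^ (k + k * e) * v.d) = _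
    rw [add_comm, d_top, dXm _ h0]
    · omega
    · rw [dXm _ h0]
      apply d_add_lt
      · omega
      · have := dXm_le (k * e) v.c; omega
  · rw [hX]
    change d (v.a + X ^ k * v.b + X ^ (2 * k + k * e) * v.d) = _
    rw [add_comm, d_top, dXm _ h0]
    · omega
    · rw [dXm _ h0]
      apply d_add_lt
      · omega
      · have := dXm_le k v.b; omega

lemma PatP.dom1 {k : ℕ} {v : V4 F} (hk : 1 ≤ k) (h : PatP e k v) : Dom1 v := by
  obtain ⟨h0, hc, hb, ha⟩ := h
  refine ⟨ne_zero_of_d_pos (by omega), by omega, by omega, by omega⟩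

lemma PatM.dom4 {k : ℕ} {v : V4 F} (h : PatM e k v) : Dom4 v := by
  obtain ⟨h0, h4, hb, hc, hd⟩ := h
  refine ⟨h4, by omega, by omega, by omega⟩

/-- `Dom4 v` gives `Dom1` after the inverse upper root element. -/
lemma L3 (k : ℕ) (hk : 1 ≤ k) {v : V4 F} (hv : Dom4 v) : Dom1 (spI e k v) := by
  obtain ⟨h0, ha, hb, hc⟩ := hv
  have h1 : (spI e k v).a = X ^ (2 * k + k * e) * v.d + (v.a + X ^ k * v.b + X ^ (k + k * e) * v.c) := by
    simp only [spI]; ring
  have h2 : d (spI e k v).a = 2 * k + k * e + d v.d := by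
    rw [h1, d_top, dXm _ h0]
    rw [dXm _ h0]
    apply d_add_lt
    · apply d_add_lt
      · omega
      · have := dXm_le k v.b; omega
    · have := dXm_le (k + k * e) v.c; omega
  refine ⟨ne_zero_of_d_pos (by omega), ?_, ?_, ?_⟩
  · rw [h2]
    change d (v.b + X ^ (k * e) * v.c) ≤ _
    apply d_add_le'
    · omega
    · have := dXm_le (k * e) v.c; omega
  · rw [h2]
    change d (v.c + X ^ k * v.d) ≤ _
    apply d_add_le'
    · omega
    · have := dXm_le k v.d; omega
  · rw [h2]
    change d v.d ≤ _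
    omega

/-- `Dom1 v` gives the pattern `PatM` after the inverse lower root element. -/
lemma L4 (k : ℕ) (hk : 1 ≤ k) {v : V4 F} (hv : Dom1 v) : PatM e k (smI e k v) := by
  obtain ⟨h0, hb, hc, hd⟩ := hv
  have h1 : (smI e k v).d = X ^ (2 * k + k * e) * v.a + (X ^ (k + k * e) * v.b + X ^ k * v.c + v.d) := by
    simp only [smI]; ring
  have h2 : d (smI e k v).d = 2 * k + k * e + d v.a := by
    rw [h1, d_top, dXm _ h0]
    rw [dXm _ h0]
    apply d_add_lt
    · apply d_add_lt
      · have := dXm_le (k + k * e) v.b; omega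
      · have := dXm_le k v.c; omega
    · omega
  have h3 : (smI e k v).a = v.a := rfl
  refine ⟨h0, ne_zero_of_d_pos (by omega), ?_, ?_, ?_⟩
  · rw [h3]
    change d (X ^ k * v.a + v.b) = _
    rw [d_top, dXm _ h0]
    · omega
    · rw [dXm _ h0]; omega
  · rw [h3]
    change d (X ^ (k * e) * v.b + v.c) ≤ _
    apply d_add_le'
    · have := dXm_le (k * e) v.b; omega
    · omega
  · rw [h3, h2]
    omega

/-- After `x_j` (the pattern `PatP k'`), the letter `x_i⁻¹` with `i ≠ j` causes no cancellation. -/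
lemma L3' (k k' : ℕ) (hk : 1 ≤ k) (hk' : 1 ≤ k') (hne : k ≠ k') (he : 1 ≤ e) {v : V4 F}
    (hv : PatP e k' v) : Dom1 (spI e k v) := by
  obtain ⟨h0, hc, hb, ha⟩ := hv
  have hane : v.a ≠ 0 := ne_zero_of_d_pos (by omega)
  have hbne : v.b ≠ 0 := ne_zero_of_d_pos (by omega)
  have hcne : v.c ≠ 0 := ne_zero_of_d_pos (by omega)
  -- exact degree of the first coordinate
  have key : ∃ M : ℕ, (M = k ∨ M = k') ∧ k ≤ M ∧ k' ≤ M ∧ d (spI e k v).a = d v.d + 2 * M + M * e := by
    rcases lt_or_gt_of_ne hne with hlt | hlt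
    · -- k < k'
      have hm : k * e < k' * e := Nat.mul_lt_mul_of_pos_right hlt (by omega)
      refine ⟨k', Or.inr rfl, by omega, le_rfl, ?_⟩
      have h1 : (spI e k v).a = v.a + (X ^ k * v.b + X ^ (k + k * e) * v.c + X ^ (2 * k + k * e) * v.d) := by
        simp only [spI]; ring
      rw [h1, d_top, ha]
      apply d_add_lt
      · apply d_add_lt
        · rw [dXm _ hbne]; omega
        · rw [dXm _ hcne]; omega
      · rw [dXm _ h0]; omega
    · -- k' < k
      have hm : k' * e < k * e := Nat.mul_lt_mul_of_pos_right hlt (by omega)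
      refine ⟨k, Or.inl rfl, le_rfl, by omega, ?_⟩
      have h1 : (spI e k v).a = X ^ (2 * k + k * e) * v.d + (v.a + X ^ k * v.b + X ^ (k + k * e) * v.c) := by
        simp only [spI]; ring
      rw [h1, d_top, dXm _ h0]
      · omega
      · rw [dXm _ h0]
        apply d_add_lt
        · apply d_add_lt
          · omega
          · rw [dXm _ hbne]; omega
        · rw [dXm _ hcne]; omega
  obtain ⟨M, hM, hkM, hkM', hdeg⟩ := key
  have hm1 : k * e ≤ M * e := Nat.mul_le_mul_right _ hkM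
  have hm2 : k' * e ≤ M * e := Nat.mul_le_mul_right _ hkM'
  refine ⟨ne_zero_of_d_pos (by omega), ?_, ?_, ?_⟩
  · rw [hdeg]
    change d (v.b + X ^ (k * e) * v.c) ≤ _
    apply d_add_le'
    · omega
    · have := dXm_le (k * e) v.c; omega
  · rw [hdeg]
    change d (v.c + X ^ k * v.d) ≤ _
    apply d_add_le'
    · omega
    · have := dXm_le k v.d; omega
  · rw [hdeg]
    change d v.d ≤ _
    omega

/-- After `x_j⁻¹` (the pattern `PatM k'`), the letter `x_i` with `i ≠ j` causes no cancellation. -/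
lemma L1' (k k' : ℕ) (hk : 1 ≤ k) (hk' : 1 ≤ k') (hne : k ≠ k') (he : 1 ≤ e) {v : V4 F}
    (hv : PatM e k' v) : Dom4 (smA e k v) := by
  obtain ⟨h0, h4, hb, hc, hd⟩ := hv
  have key : ∃ M : ℕ, k ≤ M ∧ k' ≤ M ∧ d (smA e k v).d = d v.a + 2 * M + M * e ∧ (smA e k v).d ≠ 0 := by
    rcases lt_or_gt_of_ne hne with hlt | hlt
    · -- k < k'
      have hm : k * e < k' * e := Nat.mul_lt_mul_of_pos_right hlt (by omega)
      have h1 : (smA e k v).d = v.d + (X ^ (2 * k + k * e) * v.a + X ^ k * v.c) := by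
        simp only [smA]; ring
      have h2 : d (smA e k v).d = d v.d := by
        rw [h1, d_top]
        apply d_add_lt
        · rw [dXm _ h0]; omega
        · have := dXm_le k v.c; omega
      refine ⟨k', by omega, le_rfl, by omega, ne_zero_of_d_pos (by omega)⟩
    · have hm : k' * e < k * e := Nat.mul_lt_mul_of_pos_right hlt (by omega)
      have h1 : (smA e k v).d = X ^ (2 * k + k * e) * v.a + (X ^ k * v.c + v.d) := by
        simp only [smA]; ring
      have h2 : d (smA e k v).d = 2 * k + k * e + d v.a := by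
        rw [h1, d_top, dXm _ h0]
        rw [dXm _ h0]
        apply d_add_lt
        · have := dXm_le k v.c; omega
        · omega
      refine ⟨k, le_rfl, by omega, by omega, ne_zero_of_d_pos (by omega)⟩
  obtain ⟨M, hkM, hkM', hdeg, hne0⟩ := key
  have hm1 : k * e ≤ M * e := Nat.mul_le_mul_right _ hkM
  have hm2 : k' * e ≤ M * e := Nat.mul_le_mul_right _ hkM'
  refine ⟨hne0, ?_, ?_, ?_⟩
  · rw [hdeg]
    change d v.a ≤ _
    omega
  · rw [hdeg]
    change d (X ^ k * v.a + v.b) ≤ _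
    apply d_add_le'
    · have := dXm_le k v.a; omega
    · omega
  · rw [hdeg]
    change d (X ^ (k + k * e) * v.a + X ^ (k * e) * v.b + v.c) ≤ _
    apply d_add_le'
    · apply d_add_le'
      · have := dXm_le (k + k * e) v.a; omega
      · have := dXm_le (k * e) v.b
        have h7 : k * e + d v.b ≤ k * e + (d v.a + k') := by omega
        nlinarith [hm1, hm2]
    · omega

end Cfsg.Agent.Lib.Laws.SuzukiPoly
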