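/-
Nontrivial words are not laws in large Suzuki groups: group-level part of the ping-pong.
-/
import Cfsg.Prelude.Def_Sz
import Cfsg.Agent.Lib.Laws.SuzukiPoly
import Cfsg.Agent.Lib.Laws.PingPong
import Mathlib

set_option autoImplicit false

namespace Cfsg.Agent.Lib.Laws.SuzukiWord

open Cfsg.Lie Polynomial Cfsg.Agent.Lib.Laws.SuzukiPoly
open Cfsg.Agent.Lib.Laws.PingPong (cost lift_eq_prod)

variable {F : Type*} [Field F]

def Sm (α β : F) : Matrix (Fin 4) (Fin 4) F := !![1,0,0,0; α,1,0,0; α*β,β,1,0; α^2*β,0,α,1]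
def SmI (α β : F) : Matrix (Fin 4) (Fin 4) F := !![1,0,0,0; α,1,0,0; 0,β,1,0; α^2*β,α*β,α,1]
def Sp (α β : F) : Matrix (Fin 4) (Fin 4) F := !![1,α,0,α^2*β; 0,1,β,α*β; 0,0,1,α; 0,0,0,1]
def SpI (α β : F) : Matrix (Fin 4) (Fin 4) F := !![1,α,α*β,α^2*β; 0,1,β,0; 0,0,1,α; 0,0,0,1]

lemma Sm_mul (h2 : (2:F) = 0) (α β : F) : Sm α β * SmI α β = 1 := by
  ext i j
  fin_cases i <;> fin_cases j <;> simp [Sm, SmI, Matrix.mul_apply, Fin.sum_univ_four] <;> grind

lemma SmI_mul (h2 : (2:F) = 0) (α β : F) : SmI α β * Sm α β = 1 := by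
  ext i j
  fin_cases i <;> fin_cases j <;> simp [Sm, SmI, Matrix.mul_apply, Fin.sum_univ_four] <;> grind

lemma Sp_mul (h2 : (2:F) = 0) (α β : F) : Sp α β * SpI α β = 1 := by
  ext i j
  fin_cases i <;> fin_cases j <;> simp [Sp, SpI, Matrix.mul_apply, Fin.sum_univ_four] <;> grind

lemma SpI_mul (h2 : (2:F) = 0) (α β : F) : SpI α β * Sp α β = 1 := by
  ext i j
  fin_cases i <;> fin_cases j <;> simp [Sp, SpI, Matrix.mul_apply, Fin.sum_univ_four] <;> grind

lemma star_Sm (h2 : (2:F) = 0) (e : ℕ) (he : e ≠ 0) (α β : F) (h1 : α ^ e = β) (h3 : β ^ e = α ^ 2) :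
    star4 (Sm α β) = (Sm α β).map (fun x => x ^ e) := by
  have h4 : (α ^ 2) ^ e = β ^ 2 := by rw [← pow_mul, mul_comm, pow_mul, h1]
  ext i j
  fin_cases i <;> fin_cases j <;> simp [star4, pairOf, Sm, mul_pow, he, h1, h3, h4] <;> grind

lemma star_Sp (h2 : (2:F) = 0) (e : ℕ) (he : e ≠ 0) (α β : F) (h1 : α ^ e = β) (h3 : β ^ e = α ^ 2) :
    star4 (Sp α β) = (Sp α β).map (fun x => x ^ e) := by
  have h4 : (α ^ 2) ^ e = β ^ 2 := by rw [← pow_mul, mul_comm, pow_mul, h1]
  ext i j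
  fin_cases i <;> fin_cases j <;> simp [star4, pairOf, Sp, mul_pow, he, h1, h3, h4] <;> grind

lemma form_Sm (h2 : (2:F) = 0) (α β : F) (u v : Fin 4 → F) :
    altForm4 ((Sm α β).mulVec u) ((Sm α β).mulVec v) = altForm4 u v := by
  simp [altForm4, Sm, Matrix.mulVec, dotProduct, Fin.sum_univ_four]
  grind

lemma form_Sp (h2 : (2:F) = 0) (α β : F) (u v : Fin 4 → F) :
    altForm4 ((Sp α β).mulVec u) ((Sp α β).mulVec v) = altForm4 u v := by
  simp [altForm4, Sp, Matrix.mulVec, dotProduct, Fin.sum_univ_four]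
  grind

/-- Lower root element as a unit. -/
def smU (h2 : (2:F) = 0) (α β : F) : GL (Fin 4) F :=
  ⟨Sm α β, SmI α β, Sm_mul h2 α β, SmI_mul h2 α β⟩

/-- Upper root element as a unit. -/
def spU (h2 : (2:F) = 0) (α β : F) : GL (Fin 4) F :=
  ⟨Sp α β, SpI α β, Sp_mul h2 α β, SpI_mul h2 α β⟩

lemma smU_mem (h2 : (2:F) = 0) (e : ℕ) (he : e ≠ 0) (α β : F) (h1 : α ^ e = β) (h3 : β ^ e = α ^ 2) :
    smU h2 α β ∈ Sz F e := by
  apply Subgroup.subset_closure
  refine ⟨?_, star_Sm h2 e he α β h1 h3⟩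
  intro u v
  exact form_Sm h2 α β u v

lemma spU_mem (h2 : (2:F) = 0) (e : ℕ) (he : e ≠ 0) (α β : F) (h1 : α ^ e = β) (h3 : β ^ e = α ^ 2) :
    spU h2 α β ∈ Sz F e := by
  apply Subgroup.subset_closure
  refine ⟨?_, star_Sp h2 e he α β h1 h3⟩
  intro u v
  exact form_Sp h2 α β u v

/-- The generator attached to an index. -/
def xS (h2 : (2:F) = 0) (e : ℕ) (s : F) (i : ℕ) : GL (Fin 4) F :=
  spU h2 (s ^ (i + 1)) (s ^ ((i + 1) * e)) * smU h2 (s ^ (i + 1)) (s ^ ((i + 1) * e))

lemma xS_mem (h2 : (2:F) = 0) (e : ℕ) (he : e ≠ 0) (hθ : ∀ x : F, (x ^ e) ^ e = x ^ 2) (s : F) (i : ℕ) :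
    xS h2 e s i ∈ Sz F e := by
  have h1 : (s ^ (i + 1)) ^ e = s ^ ((i + 1) * e) := (pow_mul _ _ _).symm
  have h3 : (s ^ ((i + 1) * e)) ^ e = (s ^ (i + 1)) ^ 2 := by
    rw [← h1, hθ]
  exact Subgroup.mul_mem _ (spU_mem h2 e he _ _ h1 h3) (smU_mem h2 e he _ _ h1 h3)

/-- Evaluation of a polynomial vector. -/
noncomputable def ev (s : F) (v : V4 F) : Fin 4 → F :=
  ![v.a.eval s, v.b.eval s, v.c.eval s, v.d.eval s]

lemma Sm_ev (e k : ℕ) (s : F) (v : V4 F) :
    (Sm (s ^ k) (s ^ (k * e))).mulVec (ev s v) = ev s (smA e k v) := by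
  ext i
  fin_cases i <;>
    simp [Sm, ev, smA, Matrix.mulVec, dotProduct, Fin.sum_univ_four, pow_add, pow_two, two_mul]

lemma Sp_ev (e k : ℕ) (s : F) (v : V4 F) :
    (Sp (s ^ k) (s ^ (k * e))).mulVec (ev s v) = ev s (spA e k v) := by
  ext i
  fin_cases i <;>
    simp [Sp, ev, spA, Matrix.mulVec, dotProduct, Fin.sum_univ_four, pow_add, pow_two, two_mul]

lemma SmI_ev (e k : ℕ) (s : F) (v : V4 F) :
    (SmI (s ^ k) (s ^ (k * e))).mulVec (ev s v) = ev s (smI e k v) := by
  ext i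
  fin_cases i <;>
    simp [SmI, ev, smI, Matrix.mulVec, dotProduct, Fin.sum_univ_four, pow_add, pow_two, two_mul]

lemma SpI_ev (e k : ℕ) (s : F) (v : V4 F) :
    (SpI (s ^ k) (s ^ (k * e))).mulVec (ev s v) = ev s (spI e k v) := by
  ext i
  fin_cases i <;>
    simp [SpI, ev, spI, Matrix.mulVec, dotProduct, Fin.sum_univ_four, pow_add, pow_two, two_mul]

/-- The polynomial vector of a word. -/
noncomputable def vecS (e : ℕ) : List (ℕ × Bool) → V4 F
  | [] => ⟨1, 0, 0, 0⟩
  | x :: L => if x.2 then spA e (x.1 + 1) (smA e (x.1 + 1) (vecS e L))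
      else smI e (x.1 + 1) (spI e (x.1 + 1) (vecS e L))

/-- Invariant of a reduced word. -/
def State (e : ℕ) : List (ℕ × Bool) → V4 F → Prop
  | [], v => v = ⟨1, 0, 0, 0⟩
  | (i, true) :: _, v => PatP e (i + 1) v
  | (i, false) :: _, v => PatM e (i + 1) v

lemma state_vecS (e : ℕ) (he : 1 ≤ e) (L : List (ℕ × Bool)) (hL : FreeGroup.IsReduced L) :
    State e L (vecS (F := F) e L) := by
  induction L with
  | nil => rfl
  | cons x L ih =>
    have hL' : FreeGroup.IsReduced L := hL.infix ⟨[x], [], by simp⟩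
    have hst := ih hL'
    obtain ⟨i, b⟩ := x
    cases b with
    | true =>
      change PatP e (i + 1) (spA e (i + 1) (smA e (i + 1) (vecS e L)))
      apply L2 e (i + 1) (by omega)
      cases L with
      | nil =>
        have h : vecS (F := F) e [] = ⟨1, 0, 0, 0⟩ := rfl
        rw [h]
        apply L1 e (i + 1) (by omega)
        refine ⟨one_ne_zero, ?_, ?_, ?_⟩ <;> simp
      | cons y L' =>
        obtain ⟨j, c⟩ := y
        cases c with
        | true =>
          apply L1 e (i + 1) (by omega)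
          exact PatP.dom1 e (by omega) hst
        | false =>
          have hij : i ≠ j := by
            rintro rfl
            have := (FreeGroup.isReduced_cons_cons.1 hL).1 rfl
            simp at this
          exact L1' e (i + 1) (j + 1) (by omega) (by omega) (by omega) he hst
    | false =>
      change PatM e (i + 1) (smI e (i + 1) (spI e (i + 1) (vecS e L)))
      apply L4 e (i + 1) (by omega)
      cases L with
      | nil =>
        have h : vecS (F := F) e [] = ⟨1, 0, 0, 0⟩ := rfl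
        rw [h]
        have h3 : spI e (i + 1) (⟨1, 0, 0, 0⟩ : V4 F) = ⟨1, 0, 0, 0⟩ := by
          simp [spI]
        rw [h3]
        refine ⟨one_ne_zero, ?_, ?_, ?_⟩ <;> simp
      | cons y L' =>
        obtain ⟨j, c⟩ := y
        cases c with
        | false =>
          apply L3 e (i + 1) (by omega)
          exact PatM.dom4 e hst
        | true =>
          have hij : i ≠ j := by
            rintro rfl
            have := (FreeGroup.isReduced_cons_cons.1 hL).1 rfl
            simp at this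
          exact L3' e (i + 1) (j + 1) (by omega) (by omega) (by omega) he hst

/-- Degree bound predicate. -/
def Bnd (D : ℕ) (v : V4 F) : Prop :=
  v.a.natDegree ≤ D ∧ v.b.natDegree ≤ D ∧ v.c.natDegree ≤ D ∧ v.d.natDegree ≤ D

lemma Bnd_smA (e k D : ℕ) {v : V4 F} (h : Bnd D v) : Bnd (D + (2 * k + k * e)) (smA e k v) := by
  obtain ⟨ha, hb, hc, hd⟩ := h
  refine ⟨?_, ?_, ?_, ?_⟩
  · change v.a.natDegree ≤ _; omega
  · change (X ^ k * v.a + v.b).natDegree ≤ _
    apply d_add_le'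
    · have := dXm_le k v.a; omega
    · omega
  · change (X ^ (k + k * e) * v.a + X ^ (k * e) * v.b + v.c).natDegree ≤ _
    apply d_add_le'
    · apply d_add_le'
      · have := dXm_le (k + k * e) v.a; omega
      · have := dXm_le (k * e) v.b; omega
    · omega
  · change (X ^ (2 * k + k * e) * v.a + X ^ k * v.c + v.d).natDegree ≤ _
    apply d_add_le'
    · apply d_add_le'
      · have := dXm_le (2 * k + k * e) v.a; omega
      · have := dXm_le k v.c; omega
    · omega

lemma Bnd_spA (e k D : ℕ) {v : V4 F} (h : Bnd D v) : Bnd (D + (2 * k + k * e)) (spA e k v) := by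
  obtain ⟨ha, hb, hc, hd⟩ := h
  refine ⟨?_, ?_, ?_, ?_⟩
  · change (v.a + X ^ k * v.b + X ^ (2 * k + k * e) * v.d).natDegree ≤ _
    apply d_add_le'
    · apply d_add_le'
      · omega
      · have := dXm_le k v.b; omega
    · have := dXm_le (2 * k + k * e) v.d; omega
  · change (v.b + X ^ (k * e) * v.c + X ^ (k + k * e) * v.d).natDegree ≤ _
    apply d_add_le'
    · apply d_add_le'
      · omega
      · have := dXm_le (k * e) v.c; omega
    · have := dXm_le (k + k * e) v.d; omega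
  · change (v.c + X ^ k * v.d).natDegree ≤ _
    apply d_add_le'
    · omega
    · have := dXm_le k v.d; omega
  · change v.d.natDegree ≤ _; omega

lemma Bnd_smI (e k D : ℕ) {v : V4 F} (h : Bnd D v) : Bnd (D + (2 * k + k * e)) (smI e k v) := by
  obtain ⟨ha, hb, hc, hd⟩ := h
  refine ⟨?_, ?_, ?_, ?_⟩
  · change v.a.natDegree ≤ _; omega
  · change (X ^ k * v.a + v.b).natDegree ≤ _
    apply d_add_le'
    · have := dXm_le k v.a; omega
    · omega
  · change (X ^ (k * e) * v.b + v.c).natDegree ≤ _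
    apply d_add_le'
    · have := dXm_le (k * e) v.b; omega
    · omega
  · change (X ^ (2 * k + k * e) * v.a + X ^ (k + k * e) * v.b + X ^ k * v.c + v.d).natDegree ≤ _
    apply d_add_le'
    · apply d_add_le'
      · apply d_add_le'
        · have := dXm_le (2 * k + k * e) v.a; omega
        · have := dXm_le (k + k * e) v.b; omega
      · have := dXm_le k v.c; omega
    · omega

lemma Bnd_spI (e k D : ℕ) {v : V4 F} (h : Bnd D v) : Bnd (D + (2 * k + k * e)) (spI e k v) := by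
  obtain ⟨ha, hb, hc, hd⟩ := h
  refine ⟨?_, ?_, ?_, ?_⟩
  · change (v.a + X ^ k * v.b + X ^ (k + k * e) * v.c + X ^ (2 * k + k * e) * v.d).natDegree ≤ _
    apply d_add_le'
    · apply d_add_le'
      · apply d_add_le'
        · omega
        · have := dXm_le k v.b; omega
      · have := dXm_le (k + k * e) v.c; omega
    · have := dXm_le (2 * k + k * e) v.d; omega
  · change (v.b + X ^ (k * e) * v.c).natDegree ≤ _
    apply d_add_le'
    · omega
    · have := dXm_le (k * e) v.c; omega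
  · change (v.c + X ^ k * v.d).natDegree ≤ _
    apply d_add_le'
    · omega
    · have := dXm_le k v.d; omega
  · change v.d.natDegree ≤ _; omega

lemma bnd_vecS (e : ℕ) (L : List (ℕ × Bool)) : Bnd (cost L * (e + 2)) (vecS (F := F) e L) := by
  induction L with
  | nil =>
    refine ⟨?_, ?_, ?_, ?_⟩ <;> simp [vecS]
  | cons x L ih =>
    obtain ⟨i, b⟩ := x
    have hc : cost ((i, b) :: L) * (e + 2)
        = cost L * (e + 2) + (2 * (i + 1) + (i + 1) * e) + (2 * (i + 1) + (i + 1) * e) := by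
      simp only [cost]; ring
    rw [hc]
    cases b with
    | true =>
      exact Bnd_spA e (i + 1) _ (Bnd_smA e (i + 1) _ ih)
    | false =>
      exact Bnd_smI e (i + 1) _ (Bnd_spI e (i + 1) _ ih)

/-- Matrix of the inverse of a generator. -/
lemma xS_coe (h2 : (2:F) = 0) (e : ℕ) (s : F) (i : ℕ) :
    ((xS h2 e s i : GL (Fin 4) F) : Matrix (Fin 4) (Fin 4) F)
      = Sp (s ^ (i + 1)) (s ^ ((i + 1) * e)) * Sm (s ^ (i + 1)) (s ^ ((i + 1) * e)) := rfl

lemma xS_inv_coe (h2 : (2:F) = 0) (e : ℕ) (s : F) (i : ℕ) :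
    (((xS h2 e s i)⁻¹ : GL (Fin 4) F) : Matrix (Fin 4) (Fin 4) F)
      = SmI (s ^ (i + 1)) (s ^ ((i + 1) * e)) * SpI (s ^ (i + 1)) (s ^ ((i + 1) * e)) := rfl

lemma val_mulVec (h2 : (2:F) = 0) (e : ℕ) (s : F) (L : List (ℕ × Bool)) :
    (((L.map fun x => cond x.2 (xS h2 e s x.1) (xS h2 e s x.1)⁻¹).prod : GL (Fin 4) F) :
      Matrix (Fin 4) (Fin 4) F).mulVec ![1, 0, 0, 0] = ev s (vecS e L) := by
  induction L with
  | nil =>
    simp only [List.map_nil, List.prod_nil, Units.val_one, Matrix.one_mulVec, vecS]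
    ext i
    fin_cases i <;> simp [ev]
  | cons x L ih =>
    obtain ⟨i, b⟩ := x
    rw [List.map_cons, List.prod_cons, Units.val_mul, ← Matrix.mulVec_mulVec, ih]
    cases b with
    | true =>
      simp only [cond_true, xS_coe, vecS, if_true]
      rw [← Matrix.mulVec_mulVec, Sm_ev, Sp_ev]
    | false =>
      simp only [cond_false, xS_inv_coe, vecS]
      rw [← Matrix.mulVec_mulVec, SpI_ev, SmI_ev]
      rfl

/-- The word is non-trivial at `xS` if `s` is not a root of the last coordinate. -/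
theorem lift_ne_one (h2 : (2:F) = 0) (e : ℕ) (he : e ≠ 0) (hθ : ∀ x : F, (x ^ e) ^ e = x ^ 2)
    (s : F) (w : FreeGroup ℕ)
    (hs : (vecS (F := F) e w.toWord).d.eval s ≠ 0) :
    ∃ f : ℕ → ↥(Sz F e), FreeGroup.lift f w ≠ 1 := by
  refine ⟨fun i => ⟨xS h2 e s i, xS_mem h2 e he hθ s i⟩, ?_⟩
  intro h
  have h1 : (Sz F e).subtype.comp (FreeGroup.lift fun i => (⟨xS h2 e s i, xS_mem h2 e he hθ s i⟩ : Sz F e))
      = FreeGroup.lift (xS h2 e s) := by
    apply FreeGroup.ext_hom
    intro a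
    simp
  have h3 : FreeGroup.lift (xS h2 e s) w = 1 := by
    rw [← h1, MonoidHom.comp_apply, h, map_one]
  rw [lift_eq_prod] at h3
  have h4 := val_mulVec h2 e s w.toWord
  rw [h3, Units.val_one, Matrix.one_mulVec] at h4
  have h5 := congrFun h4 3
  simp [ev] at h5
  exact hs h5.symm

theorem vecS_d_ne_zero (e : ℕ) (he : 1 ≤ e) {L : List (ℕ × Bool)} (hL : FreeGroup.IsReduced L)
    (hne : L ≠ []) : (vecS (F := F) e L).d ≠ 0 := by
  have h := state_vecS (F := F) e he L hL
  cases L with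
  | nil => exact absurd rfl hne
  | cons y L' =>
    obtain ⟨j, c⟩ := y
    cases c with
    | true => exact h.1
    | false => exact h.2.1

end Cfsg.Agent.Lib.Laws.SuzukiWord
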