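/-
Non-central word values in special unitary groups: the group `SU_n` for the form `∑ uᵢ vᵢ^q` contains
a copy of a subgroup of `SL₂(F)` fixing the skew-Hermitian form `x₀ y₁^q - x₁ y₀^q`.
-/
import Cfsg.Prelude.Def_Classical
import Cfsg.Agent.Lib.Laws.Families
import Mathlib

set_option autoImplicit false

namespace Cfsg.Agent.Lib.Laws.Unitary

open Cfsg Cfsg.Agent.Lib.Laws.PingPong Cfsg.Agent.Lib.Laws.Embed Cfsg.Agent.Lib.Laws.Core
  Cfsg.Agent.Lib.Laws.Families
open scoped MatrixGroups Matrix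
open Matrix

variable {F : Type*} [Field F]

/-- Frobenius. -/
lemma exists_sigma [Fintype F] {q : ℕ} (hq : Fintype.card F = q ^ 2) :
    ∃ σ : F →+* F, (∀ x, σ x = x ^ q) ∧ (∀ x, σ (σ x) = x) := by
  obtain ⟨p, hp⟩ := CharP.exists F
  obtain ⟨f, hpp, hf⟩ := FiniteField.card F p
  have : Fact p.Prime := ⟨hpp⟩
  have hq1 : q ∣ p ^ (f : ℕ) := by
    rw [← hf, hq]
    exact dvd_pow_self q two_ne_zero
  obtain ⟨k, -, rfl⟩ := (Nat.dvd_prime_pow hpp).1 hq1
  refine ⟨iterateFrobenius F p k, fun x => iterateFrobenius_def p k x, fun x => ?_⟩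
  rw [iterateFrobenius_def, iterateFrobenius_def, ← pow_mul, ← pow_two, ← hq, FiniteField.pow_card]

lemma exists_c_z [Fintype F] {q : ℕ} (hq : Fintype.card F = q ^ 2) (σ : F →+* F)
    (hσ : ∀ x, σ x = x ^ q) : (∃ c : F, c * σ c = -1) ∧ ∃ z : F, σ z ≠ z := by
  classical
  have h2 : 2 ≤ q := by
    have := Fintype.one_lt_card (α := F)
    rw [hq] at this
    by_contra h
    have : q = 0 ∨ q = 1 := by omega
    rcases this with rfl | rfl <;> simp at *
  obtain ⟨g, hg⟩ := IsCyclic.exists_generator (α := Fˣ)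
  have hord : orderOf g = (q + 1) * (q - 1) := by
    rw [orderOf_eq_card_of_forall_mem_zpowers hg, Nat.card_eq_fintype_card, Fintype.card_units, hq]
    obtain ⟨r, rfl⟩ : ∃ r, q = r + 1 := ⟨q - 1, by omega⟩
    simp only [Nat.add_sub_cancel]
    have : (r + 1) ^ 2 = (r + 1 + 1) * r + 1 := by ring
    omega
  have hpos : 0 < q - 1 := by omega
  constructor
  · obtain ⟨k, hk⟩ : ∃ k : ℕ, g ^ k = -1 := by
      have := hg (-1)
      rw [← mem_powers_iff_mem_zpowers] at this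
      exact this
    have hm : ((-1 : Fˣ) : F) ^ (q - 1) = 1 := by
      have h1 : ((-1 : Fˣ) : F) ^ q = -1 := by
        rw [← hσ]
        simp
      have h3 : ((-1 : Fˣ) : F) ^ q = ((-1 : Fˣ) : F) ^ (q - 1) * ((-1 : Fˣ) : F) := by
        rw [← pow_succ]
        congr 1
        omega
      rw [h3] at h1
      simpa using h1
    have h4 : g ^ (k * (q - 1)) = 1 := by
      rw [pow_mul, hk]
      apply Units.ext
      simpa using hm
    have h5 : (q + 1) * (q - 1) ∣ k * (q - 1) := by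
      rw [← hord]
      exact orderOf_dvd_of_pow_eq_one h4
    obtain ⟨j, rfl⟩ : (q + 1) ∣ k := Nat.dvd_of_mul_dvd_mul_right hpos h5
    refine ⟨(g ^ j : Fˣ), ?_⟩
    rw [hσ, ← pow_succ']
    have h6 : ((g ^ j : Fˣ) : F) ^ (q + 1) = ((g ^ ((q + 1) * j) : Fˣ) : F) := by
      rw [mul_comm, pow_mul]
      simp
    rw [h6, hk]
    simp
  · refine ⟨(g : F), ?_⟩
    rw [hσ]
    intro h
    have h7 : g ^ (q - 1) = 1 := by
      apply Units.ext
      have h8 : (g : F) ^ q = (g : F) ^ (q - 1) * g := by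
        rw [← pow_succ]
        congr 1
        omega
      rw [h8] at h
      have : (g : F) ≠ 0 := g.ne_zero
      have h9 : (g : F) ^ (q - 1) = 1 := by
        apply mul_right_cancel₀ this
        simpa using h
      simpa using h9
    have h10 := orderOf_dvd_of_pow_eq_one h7
    rw [hord] at h10
    have h11 := Nat.le_of_dvd hpos h10
    nlinarith

/-- The change of basis from the skew form to the Hermitian form. -/
lemma exists_P (σ : F →+* F) (hσ : ∀ x, σ (σ x) = x) (c z : F) (hc : c * σ c = -1) (hz : σ z ≠ z) :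
    ∃ (P : GL (Fin 2) F) (κ : F), ∀ x y : Fin 2 → F,
      (∑ i, (P.1 *ᵥ x) i * σ ((P.1 *ᵥ y) i)) = κ * (x 0 * σ (y 1) - x 1 * σ (y 0)) := by
  have hz0 : z ≠ 0 := by
    rintro rfl
    simp at hz
  have hsz0 : σ z ≠ 0 := by simpa using hz0
  set d := σ z / z with hd
  have hdd : d * σ d = 1 := by
    rw [hd, map_div₀, hσ]
    field_simp
  have hd1 : d ≠ 1 := by
    intro h
    apply hz
    rw [hd] at h
    field_simp at h
    exact h
  have hsd1 : σ d ≠ 1 := by
    intro h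
    apply hd1
    have := congrArg σ h
    simpa [hσ] using this
  set c' := c * d with hc'
  have hc'c' : c' * σ c' = -1 := by
    rw [hc', map_mul]
    calc c * d * (σ c * σ d) = (c * σ c) * (d * σ d) := by ring
      _ = -1 := by rw [hc, hdd]; ring
  set τ := 1 + c * σ c' with hτ
  have hτ0 : τ ≠ 0 := by
    have : τ = 1 - σ d := by
      rw [hτ, hc', map_mul]
      linear_combination (σ d) * hc
    rw [this]
    exact sub_ne_zero.2 (Ne.symm hsd1)
  have hτσ : σ τ = 1 + c' * σ c := by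
    rw [hτ, map_add, map_mul, hσ, map_one]
    ring
  have hsτ0 : σ τ ≠ 0 := by simpa using hτ0
  set κ := σ z - z with hκ
  have hκσ : σ κ = -κ := by
    rw [hκ, map_sub, hσ]
    ring
  have hκ0 : κ ≠ 0 := sub_ne_zero.2 hz
  set μ := σ κ / σ τ with hμ
  have hμσ : σ μ = κ / τ := by
    rw [hμ, map_div₀, hσ, hσ]
  have hμ0 : μ ≠ 0 := by
    rw [hμ]
    exact div_ne_zero (by simpa using hκ0) hsτ0
  have h3 : σ μ * (1 + c * σ c') = κ := by
    rw [hμσ, ← hτ]
    field_simp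
  have h4 : μ * (1 + c' * σ c) = -κ := by
    rw [hμ, ← hτσ, hκσ]
    field_simp
  have hc0 : c ≠ 0 := by
    rintro rfl
    simp at hc
  have hdet : (!![1, μ; c, μ * c'] : Matrix (Fin 2) (Fin 2) F).det ≠ 0 := by
    rw [Matrix.det_fin_two_of]
    have : 1 * (μ * c') - μ * c = μ * c * (d - 1) := by
      rw [hc']
      ring
    rw [this]
    exact mul_ne_zero (mul_ne_zero hμ0 hc0) (sub_ne_zero.2 hd1)
  refine ⟨Matrix.GeneralLinearGroup.mkOfDetNeZero _ hdet, κ, fun x y => ?_⟩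
  have hP : ∀ v : Fin 2 → F,
      ((Matrix.GeneralLinearGroup.mkOfDetNeZero _ hdet : GL (Fin 2) F).1 *ᵥ v) 0 = v 0 + μ * v 1 ∧
      ((Matrix.GeneralLinearGroup.mkOfDetNeZero _ hdet : GL (Fin 2) F).1 *ᵥ v) 1 = c * v 0 + μ * c' * v 1 := by
    intro v
    constructor <;> simp [Matrix.GeneralLinearGroup.mkOfDetNeZero, Matrix.mulVec, dotProduct, Fin.sum_univ_two]
  rw [Fin.sum_univ_two, (hP x).1, (hP x).2, (hP y).1, (hP y).2]
  simp only [map_add, map_mul]
  linear_combination (x 0) * σ (y 0) * (hc) + (x 0) * σ (y 1) * h3 + (x 1) * σ (y 0) * h4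
    + (x 1) * σ (y 1) * μ * σ μ * hc'c'

/-- Conjugation by an invertible matrix on the special linear group. -/
def conjSL {ι : Type*} [Fintype ι] [DecidableEq ι] (P : GL ι F) :
    Matrix.SpecialLinearGroup ι F →* Matrix.SpecialLinearGroup ι F :=
  MonoidHom.mk' (fun A => ⟨P.1 * A.1 * (P⁻¹).1, by
      have h : P.1.det * (P⁻¹).1.det = 1 := by
        rw [← Matrix.det_mul]
        simp
      rw [Matrix.det_mul, Matrix.det_mul, A.2, mul_one, h]⟩) (by
    intro a b
    apply Subtype.ext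
    change P.1 * (a.1 * b.1) * (P⁻¹).1 = (P.1 * a.1 * (P⁻¹).1) * (P.1 * b.1 * (P⁻¹).1)
    have h : (P⁻¹).1 * P.1 = 1 := by simp
    calc P.1 * (a.1 * b.1) * (P⁻¹).1 = P.1 * a.1 * 1 * b.1 * (P⁻¹).1 := by simp [Matrix.mul_assoc]
      _ = P.1 * a.1 * ((P⁻¹).1 * P.1) * b.1 * (P⁻¹).1 := by rw [h]
      _ = _ := by simp only [Matrix.mul_assoc])

lemma conjSL_coe {ι : Type*} [Fintype ι] [DecidableEq ι] (P : GL ι F) (A : Matrix.SpecialLinearGroup ι F) :
    ((conjSL P A : Matrix.SpecialLinearGroup ι F) : Matrix ι ι F) = P.1 * A.1 * (P⁻¹).1 := rfl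

lemma conjSL_injective {ι : Type*} [Fintype ι] [DecidableEq ι] (P : GL ι F) :
    Function.Injective (conjSL P) := by
  intro a b hab
  apply Subtype.ext
  have h := congrArg Subtype.val hab
  simp only [conjSL_coe] at h
  have h1 : (P⁻¹).1 * P.1 = 1 := by simp
  have h2 : P.1 * (P⁻¹).1 = 1 := by simp
  calc a.1 = (P⁻¹).1 * (P.1 * a.1 * (P⁻¹).1) * P.1 := by
        simp only [Matrix.mul_assoc, h1, Matrix.mul_one]
        rw [← Matrix.mul_assoc, h1, Matrix.one_mul]
    _ = (P⁻¹).1 * (P.1 * b.1 * (P⁻¹).1) * P.1 := by rw [h]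
    _ = b.1 := by
        simp only [Matrix.mul_assoc, h1, Matrix.mul_one]
        rw [← Matrix.mul_assoc, h1, Matrix.one_mul]

/-- Splitting the Hermitian form along the block decomposition. -/
lemma hermForm_split {n : ℕ} (h : 2 ≤ n) (q : ℕ) (u v : Fin n → F) :
    hermForm n F q u v =
      hermForm 2 F q (u ∘ finE 2 n h ∘ Sum.inl) (v ∘ finE 2 n h ∘ Sum.inl) +
        ∑ j : Fin (n - 2), u (finE 2 n h (Sum.inr j)) * (v (finE 2 n h (Sum.inr j))) ^ q := by
  simp only [hermForm]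
  rw [← Equiv.sum_comp (finE 2 n h), Fintype.sum_sum_type]
  rfl

lemma blk_mulVec {n : ℕ} (h : 2 ≤ n) (g : GL (Fin 2) F) (v : Fin n → F) :
    ((blk h g : GL (Fin n) F) : Matrix (Fin n) (Fin n) F) *ᵥ v =
      (Sum.elim (g.1 *ᵥ (v ∘ finE 2 n h ∘ Sum.inl)) (v ∘ finE 2 n h ∘ Sum.inr)) ∘ (finE 2 n h).symm := by
  change ((reindexHom (finE 2 n h) (sumR g) : GL (Fin n) F) : Matrix (Fin n) (Fin n) F) *ᵥ v = _
  rw [reindexHom_mulVec, sumR_mulVec]
  rfl

/-- Blocks of isometries of the binary form are isometries. -/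
lemma blk_preserves {n : ℕ} (h : 2 ≤ n) (q : ℕ) (g : GL (Fin 2) F)
    (hg : ∀ x y, hermForm 2 F q (g.1 *ᵥ x) (g.1 *ᵥ y) = hermForm 2 F q x y) (u v : Fin n → F) :
    hermForm n F q ((blk h g : GL (Fin n) F).1 *ᵥ u) ((blk h g : GL (Fin n) F).1 *ᵥ v) = hermForm n F q u v := by
  rw [hermForm_split h q (_ *ᵥ u), hermForm_split h q u]
  simp only [blk_mulVec]
  have e1 : ∀ w : Fin n → F, (Sum.elim (g.1 *ᵥ (w ∘ finE 2 n h ∘ Sum.inl)) (w ∘ finE 2 n h ∘ Sum.inr) ∘ (finE 2 n h).symm) ∘ finE 2 n h ∘ Sum.inl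
      = g.1 *ᵥ (w ∘ finE 2 n h ∘ Sum.inl) := by
    intro w
    funext i
    simp
  have e2 : ∀ (w : Fin n → F) (j : Fin (n - 2)), (Sum.elim (g.1 *ᵥ (w ∘ finE 2 n h ∘ Sum.inl)) (w ∘ finE 2 n h ∘ Sum.inr) ∘ (finE 2 n h).symm) (finE 2 n h (Sum.inr j))
      = w (finE 2 n h (Sum.inr j)) := by
    intro w j
    simp
  rw [e1, e1, hg]
  simp only [e2]

/-- Even permutation matrices in `SU_n`. -/
lemma altSL_mem_SU {n : ℕ} (q : ℕ) (σ : alternatingGroup (Fin n)) : altSL n F σ ∈ SU n F q := by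
  intro u v
  change hermForm n F q ((permHom F σ.1 : GL (Fin n) F).1 *ᵥ u) ((permHom F σ.1 : GL (Fin n) F).1 *ᵥ v) = _
  rw [permHom_mulVec, permHom_mulVec]
  simp only [hermForm, Function.comp]
  exact Equiv.sum_comp (σ.1⁻¹) (fun i => u i * v i ^ q)

/-- Rank bound. -/
theorem noLaw_SU_of_rank {n : ℕ} (q : ℕ) {w : FreeGroup ℕ} (h : NoLaw (alternatingGroup (Fin n)) w) :
    NoLaw (SU n F q) w := by
  refine h.map ((altSL n F).codRestrict _ (altSL_mem_SU q)) ?_
  intro a b hab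
  exact altSL_injective n (congrArg Subtype.val hab)

/-- Field bound. -/
theorem noLaw_SU_of_field [Fintype F] {n q : ℕ} (hq : Fintype.card F = q ^ 2) (hn : 2 ≤ n)
    (w : FreeGroup ℕ) (hw : w ≠ 1) (hF : cost w.toWord < q) : NoLaw (SU n F q) w := by
  obtain ⟨σ, hσ1, hσ2⟩ := exists_sigma hq
  obtain ⟨⟨c, hc⟩, z, hz⟩ := exists_c_z hq σ hσ1
  obtain ⟨P, κ, hP⟩ := exists_P σ hσ2 c z hc hz
  have hherm : ∀ (m : ℕ) (x y : Fin m → F), hermForm m F q x y = ∑ i, x i * σ (y i) := by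
    intro m x y
    simp only [hermForm, hσ1]
  -- a good element of the subfield
  obtain ⟨s, hs, hsσ⟩ : ∃ s : F, (wp (F := F) w.toWord).eval s ≠ 0 ∧ σ s = s := by
    have hne : w.toWord ≠ [] := fun h => hw (FreeGroup.toWord_eq_nil_iff.1 h)
    have h0 := wp_ne_zero (F := F) (FreeGroup.isReduced_toWord (x := w)) hne
    have hdeg := wp_natDegree_le (F := F) (FreeGroup.isReduced_toWord (x := w))
    set W := wp (F := F) w.toWord with hW
    have hcomp0 : W.comp (Polynomial.X ^ (q + 1)) ≠ 0 := by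
      intro h
      rcases Polynomial.comp_eq_zero_iff.1 h with h1 | ⟨_, h2⟩
      · exact h0 h1
      · have := congrArg Polynomial.natDegree h2
        simp at this
    have hdeg2 : (W.comp (Polynomial.X ^ (q + 1))).natDegree < Fintype.card F := by
      rw [Polynomial.natDegree_comp, Polynomial.natDegree_X_pow, hq]
      calc W.natDegree * (q + 1) ≤ (q - 1) * (q + 1) := Nat.mul_le_mul_right _ (by omega)
        _ < q ^ 2 := by
          obtain ⟨r, rfl⟩ : ∃ r, q = r + 1 := ⟨q - 1, by omega⟩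
          simp only [Nat.add_sub_cancel]
          nlinarith
    obtain ⟨t, ht⟩ := Polynomial.exists_eval_ne_zero_of_natDegree_lt_card _ hcomp0 (by
      calc ((W.comp (Polynomial.X ^ (q + 1))).natDegree : Cardinal)
          < (Fintype.card F : Cardinal) := by exact_mod_cast hdeg2
        _ = Cardinal.mk F := by simp)
    refine ⟨t ^ (q + 1), ?_, ?_⟩
    · simpa [Polynomial.eval_comp] using ht
    · have : t ^ (q + 1) = t * σ t := by rw [hσ1, pow_succ']
      rw [this, map_mul, hσ2]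
      ring
  let Φ := conjSL P
  let S₀ : Subgroup (Matrix.SpecialLinearGroup (Fin 2) F) :=
    preserving ((slToMat 2 F).comp Φ) (hermForm 2 F q)
  have hS : ∀ A : Matrix.SpecialLinearGroup (Fin 2) F,
      (∀ x y : Fin 2 → F, (A.1 *ᵥ x) 0 * σ ((A.1 *ᵥ y) 1) - (A.1 *ᵥ x) 1 * σ ((A.1 *ᵥ y) 0) =
        x 0 * σ (y 1) - x 1 * σ (y 0)) → A ∈ S₀ := by
    intro A hA u v
    have hmv : ∀ r : Fin 2 → F, ((slToMat 2 F).comp Φ A) *ᵥ r = P.1 *ᵥ (A.1 *ᵥ ((P⁻¹).1 *ᵥ r)) := by
      intro r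
      have e : ((slToMat 2 F).comp Φ) A = P.1 * (A.1 * (P⁻¹).1) := by
        rw [← Matrix.mul_assoc]
        rfl
      rw [e, Matrix.mulVec_mulVec, Matrix.mulVec_mulVec, Matrix.mul_assoc]
    have hr : ∀ r : Fin 2 → F, P.1 *ᵥ ((P⁻¹).1 *ᵥ r) = r := by
      intro r
      rw [Matrix.mulVec_mulVec]
      simp
    rw [hmv, hmv, hherm, hP, hA, ← hP, ← hherm, hr, hr]
  have hE01 : ∀ t : F, σ t = t → E01 t ∈ S₀ := by
    intro t ht
    apply hS
    intro x y
    have h0 : ∀ r : Fin 2 → F, ((E01 t).1 *ᵥ r) 0 = r 0 + t * r 1 := by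
      intro r
      simp [E01, Matrix.mulVec, dotProduct, Fin.sum_univ_two]
    have h1 : ∀ r : Fin 2 → F, ((E01 t).1 *ᵥ r) 1 = r 1 := by
      intro r
      simp [E01, Matrix.mulVec, dotProduct, Fin.sum_univ_two]
    rw [h0, h0, h1, h1, map_add, map_mul, ht]
    ring
  have hE10 : ∀ t : F, σ t = t → E10 t ∈ S₀ := by
    intro t ht
    apply hS
    intro x y
    have h0 : ∀ r : Fin 2 → F, ((E10 t).1 *ᵥ r) 0 = r 0 := by
      intro r
      simp [E10, Matrix.mulVec, dotProduct, Fin.sum_univ_two]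
    have h1 : ∀ r : Fin 2 → F, ((E10 t).1 *ᵥ r) 1 = t * r 0 + r 1 := by
      intro r
      simp [E10, Matrix.mulVec, dotProduct, Fin.sum_univ_two]
    rw [h0, h0, h1, h1, map_add, map_mul, ht]
    ring
  have hNL : NoLaw S₀ w := noLaw_sub_sl2 S₀ w s hs
    (fun i => by
      rw [xEl_eq]
      have hp : σ (s ^ (i + 1)) = s ^ (i + 1) := by rw [map_pow, hsσ]
      exact S₀.mul_mem (hE01 _ hp) (hE10 _ hp)) (hE01 _ (map_one σ)) (hE10 _ (map_one σ))
  let f0 : S₀ →* Matrix.SpecialLinearGroup (Fin n) F := (blkSL hn).comp (Φ.comp S₀.subtype)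
  have hf0 : ∀ A : S₀, f0 A ∈ SU n F q := by
    intro A u v
    exact blk_preserves hn q (Matrix.SpecialLinearGroup.toGL (Φ A.1)) (fun x y => A.2 x y) u v
  refine hNL.map (f0.codRestrict _ hf0) ?_
  intro a b hab
  have h1 : f0 a = f0 b := congrArg Subtype.val hab
  exact Subtype.ext (conjSL_injective P (blkSL_injective hn h1))

end Cfsg.Agent.Lib.Laws.Unitary
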